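import Cfsg.Agent.E11.Gen
import Cfsg.Agent.H88.J1Model

set_option autoImplicit false
set_option linter.unusedSectionVars false

namespace Cfsg.Agent.E11

open Subgroup MulAction

variable {G Ω : Type*} [Group G] [Finite G] [MulAction G Ω] [Finite Ω] {P : Ω → Subgroup G}

theorem IsJ.card {J : Type*} [Group J] (h : IsJ J) : Nat.card J = 175560 :=
  h.elim fun e => (Nat.card_congr e.toEquiv).trans H88.J1.card_J1

theorem IsJ.simple {J : Type*} [Group J] (h : IsJ J) : IsSimpleGroup J :=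
  h.elim fun e => e.isSimpleGroup

theorem blk_facts {L : Type*} [Group L] (hL : IsL L ∨ IsJ L) :
    IsSimpleGroup L ∧ ¬ IsMulCommutative L ∧ (Nat.card L = 660 ∨ Nat.card L = 175560) := by
  have h1 : IsSimpleGroup L := hL.elim (·.1) (·.simple)
  have h2 : Nat.card L = 660 ∨ Nat.card L = 175560 := hL.imp (·.2) (·.card)
  refine ⟨h1, fun hc => ?_, h2⟩
  letI : CommGroup L := { (inferInstance : Group L) with mul_comm := fun a b => hc.is_comm.comm a b }
  have := IsSimpleGroup.prime_card (α := L)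
  rcases h2 with e | e <;> rw [e] at this <;> norm_num at this

theorem Hyp.simple_blk (H : Hyp P) {a b : Ω} (hab : a ≠ b) :
    IsSimpleGroup ↥(P a ⊔ P b) ∧ ¬ IsMulCommutative ↥(P a ⊔ P b) ∧
      (Nat.card ↥(P a ⊔ P b) = 660 ∨ Nat.card ↥(P a ⊔ P b) = 175560) := blk_facts (H.pair a b hab)

theorem Hyp.pgroup (H : Hyp P) (a : Ω) : IsPGroup 11 (P a) := IsPGroup.of_card (n := 1) (by rw [H.card]; norm_num)

theorem Hyp.semireg (H : Hyp P) {a c : Ω} {x : G} (hx : x ∈ P a) (h1 : x ≠ 1) (e : x • c = c) : c = a := by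
  by_contra hne
  haveI : Fact (Nat.Prime 11) := ⟨by norm_num⟩
  have hle : P a ≤ normalizer (P c : Set G) := by
    rw [← H.zpowers_eq hx h1]; exact zpowers_le.2 (H.fix_iff.1 e)
  obtain ⟨n, hn⟩ := (IsPGroup.to_sup_of_normal_right' (H.pgroup a) (H.pgroup c) hle).exists_card_eq
  have h2 : 2 ∣ 11 ^ n := by
    rw [← hn]; rcases (H.simple_blk (Ne.symm hne)).2.2 with e | e <;> rw [e] <;> norm_num
  have := Nat.prime_two.dvd_of_dvd_pow h2
  norm_num at this

theorem exists_conj_of_card {L : Subgroup G} (hL : ¬ 121 ∣ Nat.card L) {A B : Subgroup G} (hA : A ≤ L) (hB : B ≤ L)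
    (cA : Nat.card A = 11) (cB : Nat.card B = 11) : ∃ g ∈ L, ∀ x ∈ A, g * x * g⁻¹ ∈ B := by
  haveI : Fact (Nat.Prime 11) := ⟨by norm_num⟩
  have key : ∀ C : Subgroup G, C ≤ L → Nat.card C = 11 → ∃ S : Sylow 11 L, (S : Subgroup L) = C.subgroupOf L := by
    intro C hC cC
    have c1 : Nat.card (C.subgroupOf L) = 11 := by rw [← cC]; exact Nat.card_congr (subgroupOfEquivOfLe hC).toEquiv
    have hp : IsPGroup 11 (C.subgroupOf L) := IsPGroup.of_card (n := 1) (by rw [c1]; norm_num)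
    refine ⟨hp.toSylow fun hd => hL ?_, rfl⟩
    rw [← card_mul_index (C.subgroupOf L), c1]
    exact Nat.mul_dvd_mul_left 11 hd
  obtain ⟨S, hS⟩ := key A hA cA
  obtain ⟨T, hT⟩ := key B hB cB
  obtain ⟨g, hg⟩ := exists_smul_eq L S T
  refine ⟨g, g.2, fun x hx => ?_⟩
  have h1 : (⟨x, hA hx⟩ : L) ∈ (S : Subgroup L) := by rw [hS]; exact hx
  have h2 : g * ⟨x, hA hx⟩ * g⁻¹ ∈ ((g • S : Sylow 11 L) : Subgroup L) := by
    rw [Sylow.coe_subgroup_smul]
    exact smul_mem_pointwise_smul _ (MulAut.conj g) _ h1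
  rw [hg, hT] at h2
  exact h2

theorem Hyp.exists_smul (H : Hyp P) {L : Subgroup G} (hL : ¬ 121 ∣ Nat.card L) {a c : Ω} (ha : a ∈ pts P L)
    (hc : c ∈ pts P L) : ∃ g ∈ L, g • a = c := by
  obtain ⟨g, hg, h⟩ := exists_conj_of_card hL ha hc (H.card a) (H.card c)
  exact ⟨g, hg, H.smul_eq_iff.2 h⟩

theorem Hyp.smul_mem_pts' (H : Hyp P) {L : Subgroup G} {g : G} (hg : g ∈ L) {c : Ω} (hc : c ∈ pts P L) :
    g • c ∈ pts P L := H.smul_mem_pts (fun _ hx => mul_mem (mul_mem hg hx) (inv_mem hg)) hc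

theorem Hyp.exists_pt (H : Hyp P) {L : Subgroup G} (hL : ¬ 121 ∣ Nat.card L) {a : Ω} (ha : a ∈ pts P L)
    {x : G} (hx : x ∈ L) (h11 : orderOf x = 11) : ∃ c ∈ pts P L, x ∈ P c := by
  obtain ⟨g, hg, h⟩ := exists_conj_of_card hL (zpowers_le.2 hx) ha (by rw [Nat.card_zpowers, h11]) (H.card a)
  exact ⟨g⁻¹ • a, H.smul_mem_pts' (inv_mem hg) ha, H.mem_smul.2 (by simpa using h x (mem_zpowers x))⟩

theorem Hyp.card_pts (H : Hyp P) {L : Subgroup G} (hL : ¬ 121 ∣ Nat.card L) {a : Ω} (ha : a ∈ pts P L) :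
    Nat.card L = (pts P L).ncard * Nat.card ↥(L ⊓ stabilizer G a) :=
  card_eq_of_trans L _ (fun _ hc => H.smul_mem_pts' hc ha) fun _ hz => H.exists_smul hL ha hz

theorem blk_not_dvd {L : Type*} [Group L] (hL : IsL L ∨ IsJ L) : ¬ 121 ∣ Nat.card L := by
  rcases (blk_facts hL).2.2 with e | e <;> rw [e] <;> norm_num

theorem mem_pts_left (a b : Ω) : a ∈ pts P (P a ⊔ P b) := (le_sup_left : P a ≤ P a ⊔ P b)

theorem mem_pts_right (a b : Ω) : b ∈ pts P (P a ⊔ P b) := (le_sup_right : P b ≤ P a ⊔ P b)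

theorem Hyp.trans (H : Hyp P) (a c : Ω) : ∃ g : G, g • a = c := by
  by_cases e : a = c
  · exact ⟨1, by rw [one_smul, e]⟩
  · obtain ⟨g, -, hg⟩ := H.exists_smul (blk_not_dvd (H.pair a c e)) (mem_pts_left a c) (mem_pts_right a c)
    exact ⟨g, hg⟩

theorem eq_or_le_of_simple {L : Subgroup G} (hs : IsSimpleGroup L) (N : Subgroup G)
    (hn : ∀ g ∈ L, ∀ x ∈ N, x ∈ L → g * x * g⁻¹ ∈ N) : (∀ x ∈ N, x ∈ L → x = 1) ∨ L ≤ N := by
  have : (N.subgroupOf L).Normal := ⟨fun x hx g => hn g g.2 x hx x.2⟩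
  rcases this.eq_bot_or_eq_top with e | e
  · exact Or.inl fun x hx hl => congrArg Subtype.val ((eq_bot_iff_forall _).1 e ⟨x, hl⟩ hx)
  · exact Or.inr (subgroupOf_eq_top.1 e)

theorem Hyp.eq_one_of_simple (H : Hyp P) {L : Subgroup G} (hL : IsL L ∨ IsJ L) {x : G} (hx : x ∈ L)
    (hc : x ∈ centralizer (L : Set G)) : x = 1 := by
  obtain ⟨hs, hn, -⟩ := blk_facts hL
  rcases eq_or_le_of_simple hs (centralizer (L : Set G)) (fun g hg y hy _ => by
    rw [hy g hg]; simpa using hy) with h | h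
  · exact h x hc hx
  · exact absurd ⟨⟨fun a b => Subtype.ext (h b.2 a a.2)⟩⟩ hn

theorem Hyp.iSup_pts (H : Hyp P) {L : Subgroup G} (hL : IsL L ∨ IsJ L) {a : Ω} (ha : a ∈ pts P L) :
    (⨆ c ∈ pts P L, P c) = L := by
  refine le_antisymm (iSup₂_le fun c hc => hc) ?_
  obtain ⟨x, hx, h1⟩ := H.exists_ne a
  refine (eq_or_le_of_simple (blk_facts hL).1 _ fun g hg y hy _ => ?_).resolve_left
    fun h => h1 (h x (le_iSup₂_of_le (f := fun c (_ : c ∈ pts P L) => P c) a ha le_rfl hx) (ha hx))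
  have : (⨆ c ∈ pts P L, P c) ≤ (⨆ c ∈ pts P L, P c).comap (MulAut.conj g).toMonoidHom :=
    iSup₂_le fun c hc z hz => le_iSup₂_of_le (f := fun c (_ : c ∈ pts P L) => P c) (g • c)
      (H.smul_mem_pts' hg hc) le_rfl (H.mem g c z hz)
  exact this hy

theorem Hyp.exists_second (H : Hyp P) {L : Subgroup G} (hL : IsL L ∨ IsJ L) {a : Ω} (ha : a ∈ pts P L) :
    ∃ b ∈ pts P L, b ≠ a := by
  by_contra h
  push Not at h
  have h1 : L ≤ P a := (H.iSup_pts hL ha).symm.le.trans (iSup₂_le fun c hc => by rw [h c hc])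
  have := card_le_of_le h1
  rw [H.card] at this
  rcases (blk_facts hL).2.2 with e | e <;> omega

theorem Hyp.norm_of_pts (H : Hyp P) {L : Subgroup G} (hL : IsL L ∨ IsJ L) {a : Ω} (ha : a ∈ pts P L) {g : G}
    (hg : ∀ c ∈ pts P L, g • c ∈ pts P L) : ∀ x ∈ L, g * x * g⁻¹ ∈ L := by
  have : (⨆ c ∈ pts P L, P c) ≤ L.comap (MulAut.conj g).toMonoidHom :=
    iSup₂_le fun c hc z hz => hg c hc (H.mem g c z hz)
  rw [H.iSup_pts hL ha] at this
  exact fun x hx => this hx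

theorem Hyp.cent_of_fix (H : Hyp P) {L : Subgroup G} (hL : IsL L ∨ IsJ L) {a : Ω} (ha : a ∈ pts P L) {g : G}
    (hg : ∀ c ∈ pts P L, g • c = c) : g ∈ centralizer (L : Set G) := by
  have hn := H.norm_of_pts hL ha (g := g) fun c hc => by rw [hg c hc]; exact hc
  rcases eq_or_le_of_simple (blk_facts hL).1 (⨅ c ∈ pts P L, stabilizer G c) (fun l hl y hy _ => by
    simp only [mem_iInf, mem_stabilizer_iff] at hy ⊢
    intro c hc
    rw [mul_smul, mul_smul, hy _ (H.smul_mem_pts' (inv_mem hl) hc), smul_inv_smul]) with h | h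
  · intro l hl
    have := h (l * (g * l⁻¹ * g⁻¹)) (by
      simp only [mem_iInf, mem_stabilizer_iff]
      intro c hc
      have e : g⁻¹ • c = c := inv_smul_eq_iff.2 (hg c hc).symm
      rw [mul_smul, mul_smul, mul_smul, e, hg _ (H.smul_mem_pts' (inv_mem hl) hc), smul_inv_smul])
      (mul_mem hl (hn _ (inv_mem hl)))
    calc l * g = l * (g * l⁻¹ * g⁻¹) * (g * l) := by group
      _ = g * l := by rw [this, one_mul]
  · obtain ⟨b, hb, hne⟩ := H.exists_second hL ha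
    obtain ⟨x, hx, h1⟩ := H.exists_ne a
    have := h (ha hx)
    simp only [mem_iInf, mem_stabilizer_iff] at this
    exact absurd (H.semireg hx h1 (this b hb)) hne

theorem Hyp.card_stab_dvd (H : Hyp P) (B : Subgroup G) {a : Ω} (hB : ∀ g ∈ B, g • a = a) :
    ∃ e, e ∣ 10 ∧ Nat.card B = e * Nat.card ↥(B ⊓ KK P a) := by
  haveI : Fact (Nat.Prime 11) := ⟨by norm_num⟩
  let φ : B →* (ZMod 11)ˣ := ((H.lamHom a).comp (inclusion (fun g hg => hB g hg))).toHomUnits
  have hk : φ.ker = (KK P a).subgroupOf B := by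
    ext g
    rw [MonoidHom.mem_ker, mem_subgroupOf, ← H.lam_eq_one_iff (hB g g.2), ← Units.val_inj]
    rfl
  refine ⟨Nat.card φ.range, ?_, ?_⟩
  · have := card_subgroup_dvd_card φ.range
    rwa [Nat.card_eq_fintype_card (α := (ZMod 11)ˣ), ZMod.card_units] at this
  · rw [← index_ker, ← index_mul_card φ.ker, hk]
    congr 1
    rw [← inf_subgroupOf_left]
    exact Nat.card_congr (subgroupOfEquivOfLe inf_le_left).toEquiv

theorem Min.not_comm (M : Min P) : ¬ IsMulCommutative G := fun h => by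
  obtain ⟨a, b, hab⟩ := M.nt
  exact (M.toHyp.simple_blk hab).2.1 inferInstance

theorem Min.eq_one_of_fix (M : Min P) {g : G} (hg : ∀ a : Ω, g • a = a) : g = 1 := by
  have := M.simple
  rcases (inferInstance : (toPermHom G Ω).ker.Normal).eq_bot_or_eq_top with e | e
  · exact (eq_bot_iff_forall _).1 e g (by ext a; exact hg a)
  · obtain ⟨a, b, hab⟩ := M.nt
    obtain ⟨x, hx, h1⟩ := M.toHyp.exists_ne a
    have : x ∈ (toPermHom G Ω).ker := e ▸ mem_top x
    exact absurd (M.toHyp.semireg hx h1 (congrArg (· b) (MonoidHom.mem_ker.1 this))).symm hab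

end Cfsg.Agent.E11
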