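import Mathlib
import Cfsg.Prelude.Def_Spor_J1

set_option autoImplicit false
set_option linter.unusedSectionVars false

/-! Project E11 (S3403): a class of subgroups of order 11, any two generating L2(11) or J1.
Points `a : Ω`, subgroups `P a` of order 11, permuted by conjugation. See notes/E11.md. -/

namespace Cfsg.Agent.E11

open Subgroup MulAction

/-- simple of order 660 (type `L2(11)`) -/
def IsL (H : Type*) [Group H] : Prop := IsSimpleGroup H ∧ Nat.card H = 660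

/-- isomorphic to `J1` -/
def IsJ (H : Type*) [Group H] : Prop := Cfsg.Spor.IsoJ1 H

variable {G Ω : Type*} [Group G] [MulAction G Ω]

structure Hyp (P : Ω → Subgroup G) : Prop where
  card : ∀ a, Nat.card (P a) = 11
  inj : Function.Injective P
  mem : ∀ (g : G) (a : Ω) (x : G), x ∈ P a → g * x * g⁻¹ ∈ P (g • a)
  pair : ∀ a b, a ≠ b → IsL ↥(P a ⊔ P b) ∨ IsJ ↥(P a ⊔ P b)

/-- minimal counterexample -/
structure Min (P : Ω → Subgroup G) : Prop extends Hyp P where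
  simple : IsSimpleGroup G
  gen : ⨆ a, P a = ⊤
  nt : Nontrivial Ω
  ne_top : ∀ a b, a ≠ b → P a ⊔ P b ≠ ⊤
  ind : ∀ A : Set Ω, A.Nontrivial → (⨆ a ∈ A, P a) ≠ ⊤ → ∃ b c, b ≠ c ∧ (⨆ a ∈ A, P a) = P b ⊔ P c

/-- case A: all pairs generate `L2(11)` -/
structure MinA (P : Ω → Subgroup G) : Prop extends Min P where
  allL : ∀ a b, a ≠ b → IsL ↥(P a ⊔ P b)

/-- the points of a subgroup -/
def pts (P : Ω → Subgroup G) (L : Subgroup G) : Set Ω := {c | P c ≤ L}

/-- `K a = C_G(P a)` -/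
abbrev KK (P : Ω → Subgroup G) (a : Ω) : Subgroup G := centralizer (P a : Set G)

/-- `W a b = C_G(⟨P a, P b⟩)` -/
abbrev WW (P : Ω → Subgroup G) (a b : Ω) : Subgroup G := centralizer ((P a ⊔ P b : Subgroup G) : Set G)

/-- two-point stabiliser -/
abbrev GG (G : Type*) {Ω : Type*} [Group G] [MulAction G Ω] (a b : Ω) : Subgroup G :=
  stabilizer G a ⊓ stabilizer G b

/-- the subgroup generated by the `P d` normalised by `c` -/
def MM (P : Ω → Subgroup G) (c : G) : Subgroup G := ⨆ d ∈ fixedBy Ω c, P d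

open Classical in
/-- the multiplier of `g` on `P a` (meaningful when `g • a = a`) -/
noncomputable def lam (P : Ω → Subgroup G) (a : Ω) (g : G) : ZMod 11 :=
  if h : ∃ k : ZMod 11, ∀ x ∈ P a, g * x * g⁻¹ = x ^ k.val then h.choose else 0

/-- a frame in a block of type `L2(11)` -/
structure Fr (P : Ω → Subgroup G) (a b : Ω) (h t : G) : Prop where
  ne : a ≠ b
  hL : h ∈ P a ⊔ P b
  tL : t ∈ P a ⊔ P b
  ha : h • a = a
  hb : h • b = b
  h5 : orderOf h = 5
  hlam : lam P a h ≠ 1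
  t2 : t * t = 1
  ta : t • a = b
  tb : t • b = a
  inv : t * h * t⁻¹ = h⁻¹
  two : ∀ g ∈ P a ⊔ P b, g • a = a → g • b = b → g ∈ zpowers h

/-- the exceptional 11-configuration -/
def ET (P : Ω → Subgroup G) (a b : Ω) (w y : G) : Prop :=
  w ∈ WW P a b ∧ orderOf w = 11 ∧ y ∈ KK P a ∧ y * w * y⁻¹ * w⁻¹ ∈ P a ∧ y * w * y⁻¹ ≠ w

/-- the data of the Frobenius kernel `N` (case A, no exceptional configuration) -/
structure FK (P : Ω → Subgroup G) (a b : Ω) (h : G) (N : Subgroup G) : Prop where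
  le : P a ≤ N
  leK : N ≤ KK P a
  norm : ∀ g : G, g • a = a → ∀ k ∈ N, g * k * g⁻¹ ∈ N
  card : Nat.card N + 1 = Nat.card Ω
  trans : ∀ c, c ≠ a → ∃ k ∈ N, k • b = c
  free : ∀ k ∈ N, ∀ c, c ≠ a → k • c = c → k = 1
  blk : ∀ k ∈ N, P (k • b) ≤ P a ⊔ P b → k ∈ P a
  fpf : ∀ g ∈ WW P a b ⊔ zpowers h, g ≠ 1 → ∀ k ∈ N, g * k * g⁻¹ * k⁻¹ ∈ P a → k ∈ P a
  cyc : ∀ A : Subgroup G, A ≤ WW P a b ⊔ zpowers h →
    (IsMulCommutative A ∨ ∃ p q : ℕ, p.Prime ∧ q.Prime ∧ Nat.card A = p * q) → IsCyclic A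
  cycp : ∀ (A : Subgroup G) (p : ℕ), A ≤ WW P a b ⊔ zpowers h → p.Prime → p ≠ 2 → IsPGroup p A → IsCyclic A
  uniq : ∀ z ∈ WW P a b, ∀ z' ∈ WW P a b, orderOf z = 2 → orderOf z' = 2 → z = z'
  dvd : 55 * Nat.card (WW P a b) ∣ Nat.card Ω - 12

namespace Hyp

variable {P : Ω → Subgroup G} (H : Hyp P)
include H

theorem mem_iff (g : G) (a : Ω) (x : G) : g * x * g⁻¹ ∈ P (g • a) ↔ x ∈ P a :=
  ⟨fun h => by simpa [mul_assoc] using H.mem g⁻¹ _ _ h, H.mem g a x⟩

theorem mem_smul {g : G} {a : Ω} {x : G} : x ∈ P (g • a) ↔ g⁻¹ * x * g ∈ P a := by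
  rw [← H.mem_iff g a]; simp [mul_assoc]

theorem smul_eq (g : G) (a : Ω) : P (g • a) = (P a).map (MulAut.conj g).toMonoidHom := by
  ext x
  rw [H.mem_smul]
  exact ⟨fun h => ⟨_, h, by simp [mul_assoc]⟩, by rintro ⟨y, hy, rfl⟩; simpa [mul_assoc] using hy⟩

theorem fin (a : Ω) : Finite (P a) := Nat.finite_of_card_ne_zero (by rw [H.card]; norm_num)

theorem smul_eq_iff {g : G} {a b : Ω} : g • a = b ↔ ∀ x ∈ P a, g * x * g⁻¹ ∈ P b := by
  refine ⟨fun e x hx => e ▸ H.mem g a x hx, fun h => H.inj ?_⟩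
  have := H.fin b
  refine eq_of_le_of_card_ge (fun x hx => ?_) (by rw [H.card, H.card])
  simpa [mul_assoc] using h _ (H.mem_smul.1 hx)

theorem fix_iff {g : G} {a : Ω} : g • a = a ↔ g ∈ normalizer (P a : Set G) := by
  refine ⟨fun e => mem_normalizer_iff.2 fun x => ?_, fun h => H.smul_eq_iff.2 fun x hx => (mem_normalizer_iff.1 h x).1 hx⟩
  have := H.mem_iff g a x
  rw [e] at this
  exact this.symm

theorem fix_of_K {g : G} {a : Ω} (h : g ∈ KK P a) : g • a = a :=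
  H.smul_eq_iff.2 fun x hx => by rw [← h x hx]; simpa using hx

theorem fix_of_mem {x : G} {a : Ω} (h : x ∈ P a) : x • a = a :=
  H.smul_eq_iff.2 fun y hy => mul_mem (mul_mem h hy) (inv_mem h)

theorem pow11 {x : G} {a : Ω} (h : x ∈ P a) : x ^ 11 = 1 := by
  have := pow_card_eq_one' (G := P a) (x := ⟨x, h⟩)
  rw [H.card] at this
  exact congrArg Subtype.val this

theorem orderOf_eq {x : G} {a : Ω} (h : x ∈ P a) (h1 : x ≠ 1) : orderOf x = 11 :=
  haveI : Fact (Nat.Prime 11) := ⟨by norm_num⟩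
  orderOf_eq_prime (H.pow11 h) h1

theorem exists_ne (a : Ω) : ∃ x ∈ P a, x ≠ 1 := by
  by_contra h
  push Not at h
  have := H.card a
  rw [(eq_bot_iff_forall _).2 h] at this
  simp at this

theorem zpowers_eq {x : G} {a : Ω} (h : x ∈ P a) (h1 : x ≠ 1) : zpowers x = P a := by
  have := H.fin a
  exact eq_of_le_of_card_ge (zpowers_le.2 h) (by rw [H.card, Nat.card_zpowers, H.orderOf_eq h h1])

theorem exists_pow {x y : G} {a : Ω} (h : x ∈ P a) (h1 : x ≠ 1) (hy : y ∈ P a) : ∃ k : ℕ, y = x ^ k := by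
  rw [← H.zpowers_eq h h1] at hy
  obtain ⟨k, hk⟩ := (isOfFinOrder_iff_pow_eq_one.2 ⟨11, by norm_num, H.pow11 h⟩).mem_powers_iff_mem_zpowers.2 hy
  exact ⟨k, hk.symm⟩

theorem le_K (a : Ω) : P a ≤ KK P a := fun x hx _ hy => by
  obtain ⟨z, hz, h1⟩ := H.exists_ne a
  obtain ⟨i, rfl⟩ := H.exists_pow hz h1 hx
  obtain ⟨j, rfl⟩ := H.exists_pow hz h1 hy
  exact (Commute.refl z).pow_pow j i

theorem pow_val {x : G} {a : Ω} (h : x ∈ P a) (n : ℕ) : x ^ (n : ZMod 11).val = x ^ n := by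
  rw [ZMod.val_natCast, pow_eq_pow_mod n (H.pow11 h)]

theorem pow_inj {x : G} {a : Ω} (h : x ∈ P a) (h1 : x ≠ 1) {k l : ZMod 11} (e : x ^ k.val = x ^ l.val) :
    k = l := by
  rw [pow_eq_pow_iff_modEq, H.orderOf_eq h h1] at e
  rw [← ZMod.natCast_zmod_val k, ← ZMod.natCast_zmod_val l]
  exact (ZMod.natCast_eq_natCast_iff _ _ _).2 e

theorem lam_spec {g : G} {a : Ω} (e : g • a = a) : ∀ x ∈ P a, g * x * g⁻¹ = x ^ (lam P a g).val := by
  have h : ∃ k : ZMod 11, ∀ x ∈ P a, g * x * g⁻¹ = x ^ k.val := by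
    obtain ⟨z, hz, h1⟩ := H.exists_ne a
    obtain ⟨k, hk⟩ := H.exists_pow hz h1 (H.smul_eq_iff.1 e z hz)
    refine ⟨k, fun x hx => ?_⟩
    obtain ⟨i, rfl⟩ := H.exists_pow hz h1 hx
    rw [H.pow_val hx, ← conj_pow, hk, ← pow_mul, ← pow_mul, mul_comm]
  rw [lam, dif_pos h]
  exact h.choose_spec

/-- the multiplier is determined by its effect on one nonidentity element -/
theorem lam_eq {g x : G} {a : Ω} (e : g • a = a) (h : x ∈ P a) (h1 : x ≠ 1) {k : ZMod 11}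
    (hk : g * x * g⁻¹ = x ^ k.val) : lam P a g = k :=
  H.pow_inj h h1 ((H.lam_spec e x h).symm.trans hk)

theorem lam_mul {g g' : G} {a : Ω} (e : g • a = a) (e' : g' • a = a) :
    lam P a (g * g') = lam P a g * lam P a g' := by
  obtain ⟨x, hx, h1⟩ := H.exists_ne a
  refine H.lam_eq (by rw [mul_smul, e', e]) hx h1 ?_
  have : g * g' * x * (g * g')⁻¹ = g * (g' * x * g'⁻¹) * g⁻¹ := by group
  rw [this, H.lam_spec e' x hx, ← conj_pow, H.lam_spec e x hx, ← pow_mul, ← H.pow_val hx]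
  simp

theorem lam_eq_one_iff {g : G} {a : Ω} (e : g • a = a) : lam P a g = 1 ↔ g ∈ KK P a := by
  refine ⟨fun h x hx => ?_, fun h => ?_⟩
  · have := H.lam_spec e x hx
    rw [h, show (1 : ZMod 11).val = 1 from rfl, pow_one, mul_inv_eq_iff_eq_mul] at this
    exact this.symm
  · obtain ⟨x, hx, h1⟩ := H.exists_ne a
    exact H.lam_eq e hx h1 (by rw [← h x hx, show (1 : ZMod 11).val = 1 from rfl]; simp)

theorem lam_one (a : Ω) : lam P a 1 = 1 := (H.lam_eq_one_iff (one_smul G a)).2 (one_mem _)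

theorem lam_pow {g : G} {a : Ω} (e : g • a = a) (n : ℕ) : lam P a (g ^ n) = lam P a g ^ n := by
  induction n with
  | zero => simpa using H.lam_one a
  | succ n ih => rw [pow_succ, H.lam_mul (pow_mem (mem_stabilizer_iff.2 e) n) e, ih, pow_succ]

theorem lam_inv {g : G} {a : Ω} (e : g • a = a) : lam P a g⁻¹ * lam P a g = 1 := by
  rw [← H.lam_mul (inv_mem (mem_stabilizer_iff.2 e)) e, inv_mul_cancel, H.lam_one]

theorem lam_ne_zero {g : G} {a : Ω} (e : g • a = a) : lam P a g ≠ 0 := fun h => by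
  have := H.lam_inv e
  rw [h, mul_zero] at this
  exact absurd this (by decide)

theorem lam_pow_ten {g : G} {a : Ω} (e : g • a = a) : lam P a g ^ 10 = 1 :=
  (by decide : ∀ k : ZMod 11, k ≠ 0 → k ^ 10 = 1) _ (H.lam_ne_zero e)

theorem lam_conj {g : G} {a : Ω} (e : g • a = a) (t : G) : lam P (t • a) (t * g * t⁻¹) = lam P a g := by
  obtain ⟨x, hx, h1⟩ := H.exists_ne a
  refine H.lam_eq (by rw [mul_smul, inv_smul_smul, mul_smul, e]) (H.mem t a x hx) (by simpa using h1) ?_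
  rw [conj_pow, ← H.lam_spec e x hx]; group

/-- an element with square centralising `P a` centralises or inverts it -/
theorem lam_of_sq {g : G} {a : Ω} (e : g • a = a) (h : g * g ∈ KK P a) : lam P a g = 1 ∨ lam P a g = -1 := by
  have := (H.lam_eq_one_iff (by rw [mul_smul, e, e])).2 h
  rw [H.lam_mul e e] at this
  exact (by decide : ∀ k : ZMod 11, k * k = 1 → k = 1 ∨ k = -1) _ this

theorem lam_neg_one {g x : G} {a : Ω} (e : g • a = a) (h : lam P a g = -1) (hx : x ∈ P a) :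
    g * x * g⁻¹ = x⁻¹ := by
  rw [H.lam_spec e x hx, h, show (-1 : ZMod 11).val = 10 from rfl, eq_inv_iff_mul_eq_one, ← pow_succ, H.pow11 hx]

/-- the multiplier as a homomorphism -/
noncomputable def lamHom (a : Ω) : stabilizer G a →* ZMod 11 where
  toFun g := lam P a g
  map_one' := H.lam_one a
  map_mul' g g' := H.lam_mul g.2 g'.2

theorem K_conj {g k : G} {a : Ω} (hk : k ∈ KK P a) : g * k * g⁻¹ ∈ KK P (g • a) :=
  (H.lam_eq_one_iff (by rw [mul_smul, inv_smul_smul, mul_smul, H.fix_of_K hk])).1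
    ((H.lam_conj (H.fix_of_K hk) g).trans ((H.lam_eq_one_iff (H.fix_of_K hk)).2 hk))

theorem W_le_left (a b : Ω) : WW P a b ≤ KK P a := centralizer_le (le_sup_left (a := P a) (b := P b))

theorem W_le_right (a b : Ω) : WW P a b ≤ KK P b := centralizer_le (le_sup_right (a := P a) (b := P b))

theorem mem_W {a b : Ω} {g : G} : g ∈ WW P a b ↔ g ∈ KK P a ∧ g ∈ KK P b := by
  refine ⟨fun h => ⟨H.W_le_left a b h, H.W_le_right a b h⟩, fun h => ?_⟩
  have : P a ⊔ P b ≤ centralizer {g} := sup_le (fun x hx => mem_centralizer_singleton_iff.2 (h.1 x hx))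
    fun x hx => mem_centralizer_singleton_iff.2 (h.2 x hx)
  exact fun x hx => mem_centralizer_singleton_iff.1 (this hx)

theorem blk_conj (g : G) (a b : Ω) :
    P (g • a) ⊔ P (g • b) = (P a ⊔ P b).map (MulAut.conj g).toMonoidHom := by
  rw [H.smul_eq, H.smul_eq, Subgroup.map_sup]

/-- an element permuting `{a, b}` normalises the block -/
theorem conj_mem_blk {g : G} {a b : Ω} (h : P (g • a) ⊔ P (g • b) = P a ⊔ P b) {x : G} (hx : x ∈ P a ⊔ P b) :
    g * x * g⁻¹ ∈ P a ⊔ P b := by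
  rw [← h, H.blk_conj]; exact ⟨x, hx, rfl⟩

theorem smul_mem_pts {L : Subgroup G} {g : G} (hg : ∀ x ∈ L, g * x * g⁻¹ ∈ L) {c : Ω} (hc : c ∈ pts P L) :
    g • c ∈ pts P L := fun x hx => by
  simpa [mul_assoc] using hg _ (hc (H.mem_smul.1 hx))

end Hyp

theorem IsL.of_equiv {A B : Type*} [Group A] [Group B] (h : IsL A) (e : A ≃* B) : IsL B :=
  ⟨haveI := h.1; e.symm.isSimpleGroup, by rw [← h.2]; exact Nat.card_congr e.symm.toEquiv⟩

theorem IsJ.of_equiv {A B : Type*} [Group A] [Group B] (h : IsJ A) (e : A ≃* B) : IsJ B :=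
  h.elim fun f => ⟨e.symm.trans f⟩

end Cfsg.Agent.E11
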