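import Cfsg.Agent.E11.Defs

set_option autoImplicit false
set_option linter.unusedSectionVars false

namespace Cfsg.Agent.E11

open Subgroup MulAction

variable {G Ω : Type*} [Group G] [Finite G] [MulAction G Ω] [Finite Ω] {P : Ω → Subgroup G}

theorem gen_card_trans (B : Subgroup G) (A : Set Ω) {y : Ω} (hA : ∀ c ∈ B, c • y ∈ A)
    (ht : ∀ z ∈ A, ∃ c ∈ B, c • y = z) : Nat.card B = A.ncard * Nat.card ↥(B ⊓ stabilizer G y) := by
  have hO : orbit B y = A := by
    ext z
    constructor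
    · rintro ⟨c, rfl⟩
      exact hA c c.2
    · intro hz
      obtain ⟨c, hc, rfl⟩ := ht z hz
      exact ⟨⟨c, hc⟩, rfl⟩
  have h1 := (stabilizer B y).index_mul_card
  rw [index_stabilizer, hO] at h1
  rw [← h1]
  congr 1
  have : stabilizer B y = (B ⊓ stabilizer G y).subgroupOf B := by
    ext c
    simp only [mem_stabilizer_iff, mem_subgroupOf, Subgroup.mem_inf, c.2, true_and]
    rfl
  rw [this]
  exact Nat.card_congr (subgroupOfEquivOfLe inf_le_left).toEquiv

theorem gen_ncard_conj (c : G) (S T : Set G) (h : ∀ s, s ∈ S ↔ c * s * c⁻¹ ∈ T) : S.ncard = T.ncard := by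
  have : T = (fun s => c * s * c⁻¹) '' S := by
    ext t
    constructor
    · intro ht
      exact ⟨c⁻¹ * t * c, (h _).2 (by simpa [mul_assoc] using ht), by simp [mul_assoc]⟩
    · rintro ⟨s, hs, rfl⟩
      exact (h s).1 hs
  rw [this, Set.ncard_image_of_injective]
  intro x y hxy
  simpa using hxy

theorem orbit_cover (B B0 : Subgroup G) (hle : B0 ≤ B) (hn : ∀ c ∈ B, ∀ k ∈ B0, c * k * c⁻¹ ∈ B0) (A : Set Ω)
    (hA : ∀ c ∈ B, ∀ y ∈ A, c • y ∈ A)
    (h1 : ∀ g ∈ B, g ∉ B0 → ∀ y ∈ A, ∀ z ∈ A, g • y = y → g • z = z → y = z) {y : Ω} (hy : y ∈ A)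
    (hB : ∀ g ∈ B, ∃ k ∈ B0, ∃ u ∈ B, u • y = y ∧ g = k * u) {g : G} (hg : g ∈ B) (hg0 : g ∉ B0) :
    ∃ c ∈ B, g • c • y = c • y := by
  classical
  by_contra hcon
  push Not at hcon
  set O : Set Ω := {z | ∃ c ∈ B, c • y = z} with hO
  have e1 := gen_card_trans B O (y := y) (fun c hc => ⟨c, hc, rfl⟩) (fun z hz => hz)
  have e2 := gen_card_trans B0 O (y := y) (fun c hc => ⟨c, hle hc, rfl⟩) (by
    rintro z ⟨c, hc, rfl⟩
    obtain ⟨k, hk, u, -, hu, rfl⟩ := hB c hc
    exact ⟨k, hk, by rw [mul_smul, hu]⟩)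
  set D : Set G := (B : Set G) \ (B0 : Set G) with hD
  set U : Set G := ((B ⊓ stabilizer G y : Subgroup G) : Set G) \ ((B0 ⊓ stabilizer G y : Subgroup G) : Set G)
    with hU
  have cD : D.ncard + Nat.card B0 = Nat.card B :=
    Set.ncard_diff_add_ncard_of_subset (show (B0 : Set G) ⊆ B from hle)
  have cU : U.ncard + Nat.card ↥(B0 ⊓ stabilizer G y) = Nat.card ↥(B ⊓ stabilizer G y) :=
    Set.ncard_diff_add_ncard_of_subset (show ((B0 ⊓ stabilizer G y : Subgroup G) : Set G) ⊆
      (B ⊓ stabilizer G y : Subgroup G) from inf_le_inf_right (stabilizer G y) hle)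
  have key : D.ncard = O.ncard * U.ncard := by
    rw [← cU, mul_add, ← e2, ← cD] at e1
    omega
  have hs := Finset.sum_card_bipartiteAbove_eq_sum_card_bipartiteBelow (s := (Set.toFinite O).toFinset)
    (t := (Set.toFinite D).toFinset) (fun (z : Ω) (x : G) => x • z = z)
  have l1 : ∑ z ∈ (Set.toFinite O).toFinset,
      ((Set.toFinite D).toFinset.bipartiteAbove (fun (z : Ω) (x : G) => x • z = z) z).card =
      O.ncard * U.ncard := by
    rw [Finset.sum_const_nat (m := U.ncard), Set.ncard_eq_toFinset_card O]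
    intro z hz
    rw [Set.Finite.mem_toFinset] at hz
    obtain ⟨c, hc, rfl⟩ := hz
    rw [← Set.ncard_coe_finset]
    symm
    refine gen_ncard_conj c _ _ fun s => ?_
    simp only [hU, hD, Set.mem_diff, SetLike.mem_coe, Subgroup.mem_inf, mem_stabilizer_iff,
      Finset.coe_bipartiteAbove, Set.mem_setOf_eq, Set.Finite.coe_toFinset, Set.Finite.mem_toFinset]
    rw [mul_smul, inv_smul_smul, mul_smul, smul_left_cancel_iff]
    have a1 : c * s * c⁻¹ ∈ B ↔ s ∈ B := by
      rw [B.mul_mem_cancel_right (inv_mem hc), B.mul_mem_cancel_left hc]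
    have a2 : c * s * c⁻¹ ∈ B0 ↔ s ∈ B0 :=
      ⟨fun h => by simpa [mul_assoc] using hn c⁻¹ (inv_mem hc) _ h, hn c hc s⟩
    rw [a1, a2]
    tauto
  have l2 : ∑ x ∈ (Set.toFinite D).toFinset,
      ((Set.toFinite O).toFinset.bipartiteBelow (fun (z : Ω) (x : G) => x • z = z) x).card <
      ∑ _x ∈ (Set.toFinite D).toFinset, 1 := by
    apply Finset.sum_lt_sum
    · intro x hx
      rw [Set.Finite.mem_toFinset] at hx
      rw [Finset.card_le_one]
      intro z hz z' hz'
      rw [Finset.mem_bipartiteBelow, Set.Finite.mem_toFinset] at hz hz'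
      obtain ⟨⟨c, hc, rfl⟩, hz⟩ := hz
      obtain ⟨⟨c', hc', rfl⟩, hz'⟩ := hz'
      exact h1 x hx.1 hx.2 _ (hA c hc y hy) _ (hA c' hc' y hy) hz hz'
    · refine ⟨g, by rw [Set.Finite.mem_toFinset]; exact ⟨hg, hg0⟩, ?_⟩
      rw [Nat.lt_one_iff, Finset.card_eq_zero, Finset.eq_empty_iff_forall_notMem]
      intro z hz
      rw [Finset.mem_bipartiteBelow, Set.Finite.mem_toFinset] at hz
      obtain ⟨⟨c, hc, rfl⟩, hz⟩ := hz
      exact hcon c hc hz
  rw [← hs, l1, ← key, Finset.sum_const, smul_eq_mul, mul_one, ← Set.ncard_eq_toFinset_card D] at l2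
  exact lt_irrefl _ l2

theorem count_class (h2 : ∀ a b c d : Ω, a ≠ b → c ≠ d → ∃ g : G, g • a = c ∧ g • b = d) (S : Set G)
    (hS : ∀ s ∈ S, ∀ g : G, g * s * g⁻¹ ∈ S) (f : ℕ) (hf : ∀ s ∈ S, (fixedBy Ω s).ncard = f) {a b : Ω}
    (hab : a ≠ b) : {s ∈ S | s • a = a ∧ s • b = b}.ncard * (Nat.card Ω - f) =
      f * (f - 1) * {s ∈ S | s • a = b}.ncard := by
  classical
  have := Fintype.ofFinite Ω
  have hS' : ∀ g s : G, g * s * g⁻¹ ∈ S ↔ s ∈ S := fun g s =>
    ⟨fun h => by simpa [mul_assoc] using hS _ h g⁻¹, fun h => hS s h g⟩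
  have hfix : ∀ s ∈ S, (Finset.univ.filter fun x : Ω => s • x = x).card = f := by
    intro s hs
    rw [← hf s hs, ← Set.ncard_coe_finset]
    congr 1
    ext x
    simp
  have e1 := Finset.card_mul_eq_card_mul (s := (Set.toFinite S).toFinset) (t := (Finset.univ : Finset Ω).offDiag)
    (fun (s : G) (p : Ω × Ω) => s • p.1 = p.1 ∧ s • p.2 = p.2) (m := f * (f - 1))
    (n := {s ∈ S | s • a = a ∧ s • b = b}.ncard) (by
      intro s hs
      rw [Set.Finite.mem_toFinset] at hs
      have : (Finset.univ : Finset Ω).offDiag.bipartiteAbove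
          (fun (s : G) (p : Ω × Ω) => s • p.1 = p.1 ∧ s • p.2 = p.2) s =
          (Finset.univ.filter fun x : Ω => s • x = x).offDiag := by
        ext p
        simp only [Finset.mem_bipartiteAbove, Finset.mem_offDiag, Finset.mem_univ, true_and,
          Finset.mem_filter]
        tauto
      rw [this, Finset.offDiag_card, hfix s hs, Nat.mul_sub_one]) (by
      intro p hp
      rw [Finset.mem_offDiag] at hp
      obtain ⟨g, g1, g2⟩ := h2 a b p.1 p.2 hab hp.2.2
      rw [← Set.ncard_coe_finset]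
      symm
      refine gen_ncard_conj g _ _ fun s => ?_
      simp only [Finset.coe_bipartiteBelow, Set.mem_setOf_eq, Set.Finite.mem_toFinset,
        Set.Finite.coe_toFinset]
      rw [hS', ← g1, ← g2]
      simp only [mul_smul, inv_smul_smul, smul_left_cancel_iff])
  have e2 := Finset.card_mul_eq_card_mul (s := (Set.toFinite S).toFinset) (t := (Finset.univ : Finset Ω).offDiag)
    (fun (s : G) (p : Ω × Ω) => s • p.1 = p.2) (m := Nat.card Ω - f)
    (n := {s ∈ S | s • a = b}.ncard) (by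
      intro s hs
      rw [Set.Finite.mem_toFinset] at hs
      have : (Finset.univ : Finset Ω).offDiag.bipartiteAbove
          (fun (s : G) (p : Ω × Ω) => s • p.1 = p.2) s =
          (Finset.univ.filter fun x : Ω => ¬ s • x = x).image fun x => (x, s • x) := by
        ext p
        simp only [Finset.mem_bipartiteAbove, Finset.mem_offDiag, Finset.mem_univ, true_and,
          Finset.mem_filter, Finset.mem_image]
        constructor
        · rintro ⟨h1, h2⟩
          exact ⟨p.1, fun h => h1 (h.symm.trans h2), by rw [h2]⟩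
        · rintro ⟨x, hx, rfl⟩
          exact ⟨fun h => hx h.symm, rfl⟩
      rw [this, Finset.card_image_of_injective _ (fun x y h => (Prod.mk.inj h).1), ← hfix s hs,
        Nat.card_eq_fintype_card, ← Finset.card_univ,
        ← Finset.card_filter_add_card_filter_not (s := Finset.univ) (fun x : Ω => s • x = x)]
      omega) (by
      intro p hp
      rw [Finset.mem_offDiag] at hp
      obtain ⟨g, g1, g2⟩ := h2 a b p.1 p.2 hab hp.2.2
      rw [← Set.ncard_coe_finset]
      symm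
      refine gen_ncard_conj g _ _ fun s => ?_
      simp only [Finset.coe_bipartiteBelow, Set.mem_setOf_eq, Set.Finite.mem_toFinset,
        Set.Finite.coe_toFinset]
      rw [hS', ← g1, ← g2]
      simp only [mul_smul, inv_smul_smul, smul_left_cancel_iff])
  have hpos : 0 < ((Finset.univ : Finset Ω).offDiag).card :=
    Finset.card_pos.2 ⟨(a, b), by simp [hab]⟩
  apply Nat.eq_of_mul_eq_mul_left hpos
  rw [← mul_assoc, ← e1, mul_left_comm _ (f * (f - 1)), ← e2]
  ring

theorem eq_one_of_ab_syl [IsSimpleGroup G] (hG : ¬ IsMulCommutative G) {p : ℕ} [Fact p.Prime] (S : Sylow p G)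
    (hS : ∀ x ∈ S, ∀ y ∈ S, x * y = y * x) {x : G} (hx : x ∈ S)
    (hc : ∀ g ∈ normalizer ((S : Subgroup G) : Set G), g * x = x * g) : x = 1 := by
  have hcomm : IsMulCommutative S := ⟨⟨fun a b => Subtype.ext (hS a a.2 b b.2)⟩⟩
  have hcomm' : IsMulCommutative (S : Subgroup G) := hcomm
  let inst : CommGroup (S : Subgroup G) := { (inferInstance : Group (S : Subgroup G)) with
    mul_comm := fun a b => Subtype.ext (hS a a.2 b b.2) }
  have key : ∀ (k : ℕ) (g₀ : G), g₀⁻¹ * x ^ k * g₀ ∈ (S : Subgroup G) → g₀⁻¹ * x ^ k * g₀ = x ^ k := by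
    intro k g₀ h
    obtain ⟨n, hn, e⟩ := S.conj_eq_normalizer_conj_of_mem (x ^ k) g₀ (pow_mem hx k) h
    rw [e]
    have : Commute n (x ^ k) := (show Commute n x from hc n hn).pow_right k
    rw [mul_assoc, ← this.eq, inv_mul_cancel_left]
  let V : G →* (S : Subgroup G) := MonoidHom.transfer (MonoidHom.id (S : Subgroup G))
  have hV : V x = ⟨x ^ (S : Subgroup G).index, MonoidHom.transfer_eq_pow_aux x key⟩ :=
    MonoidHom.transfer_eq_pow _ x key
  have hker : V.ker = ⊤ := by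
    rcases V.normal_ker.eq_bot_or_eq_top with h | h
    · exfalso
      apply hG
      have hinj := (MonoidHom.ker_eq_bot_iff V).1 h
      exact ⟨⟨fun a b => hinj (by rw [map_mul, map_mul, mul_comm])⟩⟩
    · exact h
  have h1 : V x = 1 := MonoidHom.mem_ker.1 (hker ▸ mem_top x)
  rw [hV] at h1
  have h2 : x ^ (S : Subgroup G).index = 1 := congrArg Subtype.val h1
  obtain ⟨k, hk⟩ := S.isPGroup' ⟨x, hx⟩
  have h3 : x ^ p ^ k = 1 := congrArg Subtype.val hk
  have hcop : Nat.Coprime (p ^ k) (S : Subgroup G).index :=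
    Nat.Coprime.pow_left k ((Nat.Prime.coprime_iff_not_dvd Fact.out).2 S.not_dvd_index)
  rw [← orderOf_eq_one_iff]
  exact Nat.eq_one_of_dvd_coprimes hcop (orderOf_dvd_of_pow_eq_one h3) (orderOf_dvd_of_pow_eq_one h2)

/-- an invariant set as a sub-action -/
def genSub (B : Subgroup G) (A : Set Ω) (hA : ∀ c ∈ B, ∀ y ∈ A, c • y ∈ A) : SubMulAction B Ω where
  carrier := A
  smul_mem' := fun c {y} hy => hA c c.2 y hy

theorem dvd_ncard_of_free (B : Subgroup G) (A : Set Ω) (hA : ∀ c ∈ B, ∀ y ∈ A, c • y ∈ A)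
    (h1 : ∀ g ∈ B, ∀ y ∈ A, g • y = y → g = 1) : Nat.card B ∣ A.ncard := by
  have e := MulAction.selfEquivOrbitsQuotientProd (G := B) (X := genSub B A hA) (fun y => by
    rw [eq_bot_iff_forall]
    intro c hc
    exact Subtype.ext (h1 c c.2 y y.2 (congrArg Subtype.val (mem_stabilizer_iff.1 hc))))
  have := Nat.card_congr e
  rw [Nat.card_prod] at this
  have h2 : A.ncard = Nat.card (genSub B A hA) := rfl
  rw [h2, this]
  exact dvd_mul_left _ _

theorem ncard_fix_modEq {p : ℕ} (hp : p.Prime) {g : G} {k : ℕ} (hg : g ^ p ^ k = 1) (A : Set Ω)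
    (hA : ∀ y ∈ A, g • y ∈ A) : A.ncard ≡ {y ∈ A | g • y = y}.ncard [MOD p] := by
  haveI : Fact p.Prime := ⟨hp⟩
  have hA' : ∀ c ∈ zpowers g, ∀ y ∈ A, c • y ∈ A := by
    intro c hc y hy
    obtain ⟨n, rfl⟩ := (isOfFinOrder_of_finite g).mem_powers_iff_mem_zpowers.2 hc
    induction n with
    | zero => simpa using hy
    | succ n ih =>
      simp only [pow_succ', mul_smul]
      exact hA _ (ih (pow_mem (mem_zpowers g) n))
  have hP : IsPGroup p (zpowers g) := by
    rintro ⟨c, n, rfl⟩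
    refine ⟨k, Subtype.ext ?_⟩
    change (g ^ n) ^ p ^ k = 1
    rw [← zpow_natCast, ← zpow_mul, mul_comm, zpow_mul, zpow_natCast, hg, one_zpow]
  have := hP.card_modEq_card_fixedPoints (genSub (zpowers g) A hA')
  have h2 : A.ncard = Nat.card (genSub (zpowers g) A hA') := rfl
  rw [h2]
  convert this using 1
  rw [← Nat.card_coe_set_eq]
  refine Nat.card_congr ⟨fun y => ⟨⟨y.1, y.2.1⟩, ?_⟩, fun y => ⟨y.1.1, y.1.2, ?_⟩, fun _ => rfl, fun _ => rfl⟩
  · rintro ⟨c, hc⟩
    exact Subtype.ext (mem_stabilizer_iff.1 ((zpowers_le.2 (mem_stabilizer_iff.2 y.2.2)) hc))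
  · exact congrArg Subtype.val (y.2 ⟨g, mem_zpowers g⟩)

theorem card_eq_of_trans (B : Subgroup G) (A : Set Ω) {y : Ω} (hA : ∀ c ∈ B, c • y ∈ A)
    (ht : ∀ z ∈ A, ∃ c ∈ B, c • y = z) : Nat.card B = A.ncard * Nat.card ↥(B ⊓ stabilizer G y) :=
  gen_card_trans B A hA ht

end Cfsg.Agent.E11
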