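import Cfsg.Agent.E11.Base
import Cfsg.Agent.H6.J1Spec

set_option autoImplicit false
set_option linter.unusedSectionVars false
set_option maxRecDepth 100000

namespace Cfsg.Agent.E11

open Subgroup MulAction Cfsg.Spor Cfsg.Agent.H88 Cfsg.Agent.H88.J1 Cfsg.Agent.H6

variable {G Ω : Type*} [Group G] [Finite G] [MulAction G Ω] [Finite Ω] {P : Ω → Subgroup G}

theorem IsJ.emb {J : Subgroup G} (hJ : IsJ J) :
    ∃ ι : J1 →* G, Function.Injective ι ∧ ∀ x, x ∈ J ↔ ∃ y, ι y = x := by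
  obtain ⟨e⟩ := hJ
  exact ⟨J.subtype.comp e.symm.toMonoidHom, J.subtype_injective.comp e.symm.injective, fun x =>
    ⟨fun hx => ⟨e ⟨x, hx⟩, by simp⟩, by rintro ⟨y, rfl⟩; exact (e.symm y).2⟩⟩

theorem IsJ.inner {J : Subgroup G} (hJ : IsJ J) {g : G} (hg : ∀ x ∈ J, g * x * g⁻¹ ∈ J) :
    ∃ l ∈ J, l⁻¹ * g ∈ centralizer (J : Set G) := by
  obtain ⟨e⟩ := hJ
  obtain ⟨l, hl⟩ := aut_inner
    (e.symm.trans ((J.normalizerMonoidHom ⟨g, mem_normalizer_fintype hg⟩).trans e))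
  refine ⟨e.symm l, (e.symm l).2, fun x hx => ?_⟩
  have h1 := congrArg (fun α : MulAut J1 => ((e.symm (α (e ⟨x, hx⟩)) : J) : G)) hl
  have h2 : g * x * g⁻¹ = e.symm l * x * (e.symm l : G)⁻¹ := by simpa using h1
  calc x * ((e.symm l : G)⁻¹ * g) = (e.symm l : G)⁻¹ * (e.symm l * x * (e.symm l : G)⁻¹) * g := by group
    _ = _ := by rw [← h2]; group

theorem IsJ.sq {J : Subgroup G} (hJ : IsJ J) {x : G} (hx : x ∈ J) (h4 : x ^ 4 = 1) : x * x = 1 := by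
  obtain ⟨ι, hι, m⟩ := hJ.emb
  obtain ⟨y, rfl⟩ := (m x).1 hx
  obtain ⟨k, hk, h⟩ := j1_orderOf y
  rw [← orderOf_injective ι hι] at h
  rw [← pow_two, ← orderOf_dvd_iff_pow_eq_one]
  exact (Nat.dvd_gcd (orderOf_dvd_of_pow_eq_one h4) h).trans
    ((by decide : ∀ k ∈ [6, 10, 15, 7, 11, 19], Nat.gcd 4 k ∣ 2) k hk)

theorem IsJ.cent {J : Subgroup G} (hJ : IsJ J) :
    ∃ s0 : G, ∀ s ∈ J, orderOf s = 2 → (∃ g ∈ J, g * s0 * g⁻¹ = s) ∧ ∃ ψ : T →* G, Function.Injective ψ ∧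
      ψ t0 = s ∧ (∀ a, ψ a ∈ J) ∧ ∀ x ∈ J, Commute s x → ∃ a, ψ a = x := by
  obtain ⟨ι, hι, m⟩ := hJ.emb
  refine ⟨ι (jφ t0), fun s hs h2 => ?_⟩
  obtain ⟨u, rfl⟩ := (m s).1 hs
  rw [orderOf_injective ι hι] at h2
  obtain ⟨g, rfl⟩ := jbase.inv_conj j16 (u := u) (by rw [← pow_two, ← h2, pow_orderOf_eq_one])
    (by rintro rfl; simp at h2)
  refine ⟨⟨ι g, (m _).2 ⟨g, rfl⟩, by simp⟩, ι.comp ((MulAut.conj g).toMonoidHom.comp jφ),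
    hι.comp ((MulAut.conj g).injective.comp jbase.inj), rfl, fun a => (m _).2 ⟨_, rfl⟩, fun x hx hc => ?_⟩
  obtain ⟨y, rfl⟩ := (m x).1 hx
  have h3 : g * jφ t0 * g⁻¹ * y = y * (g * jφ t0 * g⁻¹) := hι (by rw [map_mul, map_mul ι y]; exact hc.eq)
  obtain ⟨a, ha⟩ : g⁻¹ * y * g ∈ jφ.range := jcent ▸ mem_centralizer_singleton_iff.2 (by
    calc g⁻¹ * y * g * jφ t0 = g⁻¹ * (y * (g * jφ t0 * g⁻¹)) * g := by group
      _ = _ := by rw [← h3]; group)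
  exact ⟨a, congrArg ι (show g * jφ a * g⁻¹ = y by rw [ha]; group)⟩

theorem IsJ.conj {J : Subgroup G} (hJ : IsJ J) {s t : G} (hs : s ∈ J) (ht : t ∈ J) (h2 : orderOf s = 2)
    (h2' : orderOf t = 2) : ∃ g ∈ J, g * s * g⁻¹ = t := by
  obtain ⟨s0, h⟩ := hJ.cent
  obtain ⟨g, hg, rfl⟩ := (h s hs h2).1
  obtain ⟨k, hk, rfl⟩ := (h t ht h2').1
  exact ⟨k * g⁻¹, mul_mem hk (inv_mem hg), by group⟩

theorem T_five : ∀ h : T, h ^ 5 = 1 → h ≠ 1 → (∃ t : T, t * h * t⁻¹ = h⁻¹) ∧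
    ∀ l : T, (∃ i : Fin 5, l * h * l⁻¹ = h ^ (i : ℕ)) →
      l * h * l⁻¹ = h⁻¹ ∨ ∃ i : Fin 5, l = h ^ (i : ℕ) ∨ l = h ^ (i : ℕ) * t0 := by
  decide +kernel

theorem IsJ.five {J : Subgroup G} (hJ : IsJ J) {s h : G} (hs : s ∈ J) (hh : h ∈ J) (h2 : orderOf s = 2)
    (h5 : orderOf h = 5) (hc : Commute s h) :
    (∃ t ∈ J, Commute s t ∧ t * h * t⁻¹ = h⁻¹) ∧
      ∀ l ∈ J, Commute s l → l * h * l⁻¹ ∈ zpowers h → l * h * l⁻¹ = h⁻¹ ∨ l ∈ zpowers h ⊔ zpowers s := by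
  obtain ⟨s0, h0⟩ := hJ.cent
  obtain ⟨-, ψ, hψ, rfl, m, c⟩ := h0 s hs h2
  obtain ⟨h, rfl⟩ := c h hh hc
  have h5' := (orderOf_injective ψ hψ h).symm.trans h5
  obtain ⟨⟨t, ht⟩, k⟩ := T_five h (h5' ▸ pow_orderOf_eq_one h) (by rintro rfl; simp at h5')
  refine ⟨⟨ψ t, m t, Commute.map (t0_central t).symm ψ, by rw [← map_inv, ← map_inv, ← ht, map_mul, map_mul]⟩,
    fun l hl hc hz => ?_⟩
  obtain ⟨l, rfl⟩ := c l hl hc
  obtain ⟨n, hn⟩ := mem_powers_iff_mem_zpowers.2 hz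
  have hn : ψ h ^ n = _ := hn
  rw [← pow_mod_orderOf, h5, ← map_pow, ← map_inv, ← map_mul, ← map_mul] at hn
  rcases k l ⟨⟨n % 5, Nat.mod_lt _ (by norm_num)⟩, (hψ hn).symm⟩ with e | ⟨i, rfl | rfl⟩
  · exact .inl (by rw [← map_inv, ← map_inv, ← e, map_mul, map_mul])
  · exact .inr (mem_sup_left (map_pow ψ h i ▸ npow_mem_zpowers _ _))
  · exact .inr (by rw [map_mul, map_pow]; exact mul_mem_sup (npow_mem_zpowers _ _) (mem_zpowers _))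

theorem Hyp.exists_j11 (H : Hyp P) {J : Subgroup G} (hJ : IsJ J) {a : Ω} (ha : a ∈ pts P J) :
    ∃ ι : J1 →* G, Function.Injective ι ∧ (∀ x, x ∈ J ↔ ∃ y, ι y = x) ∧ ι j11 ∈ P a ∧ ι j11 ≠ 1 := by
  obtain ⟨ι, hι, m⟩ := hJ.emb
  obtain ⟨z, hz, h1⟩ := H.exists_ne a
  obtain ⟨z, rfl⟩ := (m z).1 (ha hz)
  obtain ⟨g, k, hk⟩ := exists_conj_mem_zpowers (by norm_num : Nat.Prime 11) (by rw [card_J1]; norm_num) ord_11
    ((orderOf_injective ι hι z).symm.trans (H.orderOf_eq hz h1))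
  have hi := hι.comp (MulAut.conj g).injective
  refine ⟨ι.comp (MulAut.conj g).toMonoidHom, hi, fun x => (m x).trans ⟨fun ⟨y, hy⟩ =>
    ⟨(MulAut.conj g).symm y, by simpa [mul_assoc] using hy⟩, fun ⟨y, hy⟩ => ⟨_, hy⟩⟩, ?_, fun e => ?_⟩
  · show ι (g * j11 * g⁻¹) ∈ P a
    rw [← hk, map_zpow]
    exact zpow_mem hz k
  · have := ord_11
    rw [hi (e.trans (map_one (ι.comp (MulAut.conj g).toMonoidHom)).symm), orderOf_one] at this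
    omega

theorem Hyp.K_J (H : Hyp P) {J : Subgroup G} (hJ : IsJ J) {a : Ω} (ha : a ∈ pts P J) {x : G} (hx : x ∈ J)
    (hK : x ∈ KK P a) : x ∈ P a := by
  obtain ⟨ι, hι, m, h, -⟩ := H.exists_j11 hJ ha
  obtain ⟨y, rfl⟩ := (m x).1 hx
  have h1 : zpowers j11 = centralizer {j11} := eq_of_le_of_card_ge
    (zpowers_le.2 (mem_centralizer_singleton_iff.2 rfl)) (by rw [j1_cent11, Nat.card_zpowers, ord_11])
  obtain ⟨k, rfl⟩ : y ∈ zpowers j11 :=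
    h1 ▸ mem_centralizer_singleton_iff.2 (hι (by rw [map_mul, map_mul]; exact (hK _ h).symm))
  exact map_zpow ι _ k ▸ zpow_mem h k

theorem Hyp.exists_ten_J (H : Hyp P) {J : Subgroup G} (hJ : IsJ J) {a : Ω} (ha : a ∈ pts P J) :
    ∃ n ∈ J, n • a = a ∧ lam P a n = 2 ∧ n ^ 10 = 1 := by
  obtain ⟨ι, hι, m, h, h1⟩ := H.exists_j11 hJ ha
  obtain ⟨g, hg⟩ := j1_norm11
  have h2 : ι g * ι j11 * (ι g)⁻¹ = ι j11 ^ 2 := by rw [← map_mul, hg, map_mul, map_pow, mul_inv_cancel_right]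
  have e : ι g • a = a := H.smul_eq_iff.2 fun x hx => by
    obtain ⟨k, rfl⟩ := H.exists_pow h h1 hx
    rw [← conj_pow, h2]
    exact pow_mem (pow_mem h 2) k
  have h3 : lam P a (ι g) = 2 := H.lam_eq e h h1 h2
  have hJ' := (m _).2 ⟨g, rfl⟩
  have h4 : ι g ^ 10 ∈ P a := H.K_J hJ ha (pow_mem hJ' 10)
    ((H.lam_eq_one_iff (pow_mem (mem_stabilizer_iff.2 e) 10)).1 (by rw [H.lam_pow e, H.lam_pow_ten e]))
  refine ⟨_, hJ', e, h3, ?_⟩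
  have h5 := H.lam_spec e _ h4
  rw [h3, show (2 : ZMod 11).val = 2 from rfl, ((Commute.refl (ι g)).pow_right 10).eq, mul_inv_cancel_right,
    pow_two] at h5
  exact (left_eq_mul.1 h5)

theorem Hyp.card_stab_J (H : Hyp P) {J : Subgroup G} (hJ : IsJ J) {a : Ω} (ha : a ∈ pts P J) :
    Nat.card ↥(J ⊓ stabilizer G a) = 110 ∧ (pts P J).ncard = 1596 := by
  obtain ⟨n, hn, e, h2, -⟩ := H.exists_ten_J hJ ha
  obtain ⟨k, hk, h3⟩ := H.card_stab_dvd (J ⊓ stabilizer G a) fun g hg => hg.2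
  have h4 : J ⊓ stabilizer G a ⊓ KK P a = P a := le_antisymm (fun x hx => H.K_J hJ ha hx.1.1 hx.2)
    fun x hx => ⟨⟨ha hx, H.fix_of_mem hx⟩, H.le_K a hx⟩
  rw [h4, H.card] at h3
  have h5 : n ^ (k * 11) = 1 :=
    h3 ▸ congrArg Subtype.val (pow_card_eq_one' (G := ↥(J ⊓ stabilizer G a)) (x := ⟨n, hn, e⟩))
  have h6 := H.lam_pow e (k * 11)
  rw [h5, H.lam_one, h2] at h6
  have h7 : k = 10 := (by decide : ∀ k ≤ 10, 1 = (2 : ZMod 11) ^ (k * 11) → k ∣ 10 → k = 10) k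
    (Nat.le_of_dvd (by norm_num) hk) h6 hk
  have h8 := H.card_pts (by rw [hJ.card]; norm_num) ha
  rw [hJ.card] at h8
  subst h7
  exact ⟨h3, by rw [h3] at h8; omega⟩

theorem Hyp.exists_inv_J (H : Hyp P) {J : Subgroup G} (hJ : IsJ J) {a : Ω} (ha : a ∈ pts P J) :
    ∃ s ∈ J, s * s = 1 ∧ s • a = a ∧ lam P a s = -1 := by
  obtain ⟨n, hn, e, h2, h3⟩ := H.exists_ten_J hJ ha
  exact ⟨n ^ 5, pow_mem hn 5, by rw [← pow_add, h3], pow_mem (mem_stabilizer_iff.2 e) 5,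
    by rw [H.lam_pow e, h2]; decide⟩

theorem Hyp.exists_five_J (H : Hyp P) {J : Subgroup G} (hJ : IsJ J) {a : Ω} (ha : a ∈ pts P J) {s : G}
    (hs : s ∈ J) (h2 : s * s = 1) (e : s • a = a) (h1 : lam P a s = -1) :
    ∃ h ∈ J, orderOf h = 5 ∧ h • a = a ∧ lam P a h ≠ 1 ∧ Commute s h := by
  obtain ⟨n, hn, en, l2, h3⟩ := H.exists_ten_J hJ ha
  have e5 : n ^ 5 • a = a := pow_mem (mem_stabilizer_iff.2 en) 5
  have e2 : n ^ 2 • a = a := pow_mem (mem_stabilizer_iff.2 en) 2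
  have l5 : lam P a (n ^ 5) = -1 := by rw [H.lam_pow en, l2]; decide
  have l4 : lam P a (n ^ 2) ≠ 1 := by rw [H.lam_pow en, l2]; decide
  have hx : s * n ^ 5 ∈ P a := H.K_J hJ ha (mul_mem hs (pow_mem hn 5))
    ((H.lam_eq_one_iff (by rw [mul_smul, e5, e])).1 (by rw [H.lam_mul e e5, h1, l5]; decide))
  obtain ⟨x, hx'⟩ : ∃ x, x = s * n ^ 5 := ⟨_, rfl⟩
  rw [← hx'] at hx
  have hy := pow_mem hx 6
  have h4 : x ^ 6 * n ^ 5 * (x ^ 6)⁻¹ = s := by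
    calc x ^ 6 * n ^ 5 * (x ^ 6)⁻¹ = x ^ 6 * (n ^ 5 * (x ^ 6)⁻¹ * (n ^ 5)⁻¹) * n ^ 5 := by group
      _ = x ^ 11 * x * n ^ 5 := by rw [H.lam_neg_one e5 l5 (inv_mem hy)]; group
      _ = s := by rw [H.pow11 hx, one_mul, hx', mul_assoc, ← pow_add, h3, mul_one]
  have h5 := H.lam_conj e2 (x ^ 6)
  rw [H.fix_of_mem hy] at h5
  haveI : Fact (Nat.Prime 5) := ⟨by norm_num⟩
  refine ⟨x ^ 6 * n ^ 2 * (x ^ 6)⁻¹, mul_mem (mul_mem (ha hy) (pow_mem hn 2)) (inv_mem (ha hy)),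
    orderOf_eq_prime (by rw [conj_pow, ← pow_mul, h3]; simp) fun k => l4 (by rw [← h5, k, H.lam_one]),
    by rw [mul_smul, mul_smul, H.fix_of_mem (inv_mem hy), e2, H.fix_of_mem hy], h5 ▸ l4, ?_⟩
  rw [← h4]
  exact ((Commute.refl n).pow_pow 5 2).map (MulAut.conj (x ^ 6))

end Cfsg.Agent.E11
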