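import Cfsg.Agent.E11.LB1
import Cfsg.Agent.H42.SylIn

set_option autoImplicit false
set_option linter.unusedSectionVars false

namespace Cfsg.Agent.E11

open Subgroup MulAction

variable {G Ω : Type*} [Group G] [Finite G] [MulAction G Ω] [Finite Ω] {P : Ω → Subgroup G}

theorem lb2_l (a b : Ω) : a ∈ pts P (P a ⊔ P b) := (le_sup_left : P a ≤ P a ⊔ P b)

theorem lb2_r (a b : Ω) : b ∈ pts P (P a ⊔ P b) := (le_sup_right : P b ≤ P a ⊔ P b)

theorem Hyp.W_of_K_L (H : Hyp P) {a b : Ω} (hab : a ≠ b) (hL : IsL ↥(P a ⊔ P b)) {g : G} (hg : g ∈ KK P a)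
    (e : g • b = b) : g ∈ WW P a b := by
  refine H.cent_of_fix (Or.inl hL) (lb2_l a b) fun c hc => ?_
  by_cases hca : c = a
  · rw [hca, H.fix_of_K hg]
  obtain ⟨x, hx, rfl⟩ := H.reg_L hL (lb2_l a b) (lb2_r a b) hc hab.symm hca
  rw [← mul_smul, ← hg x hx, mul_smul, e]

theorem Hyp.three_L (H : Hyp P) {a b c : Ω} (hab : a ≠ b) (hL : IsL ↥(P a ⊔ P b)) (hc : c ∈ pts P (P a ⊔ P b))
    (hca : c ≠ a) (hcb : c ≠ b) {g : G} (ea : g • a = a) (eb : g • b = b) (ec : g • c = c) :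
    g ∈ WW P a b := by
  obtain ⟨x, hx, rfl⟩ := H.reg_L hL (lb2_l a b) (lb2_r a b) hc hab.symm hca
  have x1 : x ≠ 1 := by rintro rfl; exact hcb (one_smul _ _)
  have h1 : x⁻¹ * (g * x * g⁻¹) = 1 := by
    by_contra k
    refine hab (H.semireg (mul_mem (inv_mem hx) (H.smul_eq_iff.1 ea x hx)) k ?_).symm
    rw [mul_smul, mul_smul, inv_smul_eq_iff.2 eb.symm, mul_smul, ec, inv_smul_smul]
  exact H.W_of_K_L hab hL ((H.lam_eq_one_iff ea).1 (H.lam_eq ea hx x1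
    ((inv_mul_eq_one.1 h1).symm.trans (pow_one x).symm))) eb

theorem Hyp.lb2_second (H : Hyp P) {L : Subgroup G} (hL : IsL L) {a : Ω} (ha : a ∈ pts P L) {g : G}
    (hg : ∀ x ∈ L, g * x * g⁻¹ ∈ L) (e : g • a = a) : ∃ b ∈ pts P L, b ≠ a ∧ ∃ x ∈ P a, x • b = g • b := by
  obtain ⟨b, hb, hba⟩ := Set.exists_ne_of_one_lt_ncard (s := pts P L) (by rw [H.ncard_pts_L hL ha]; norm_num) a
  exact ⟨b, hb, hba, H.reg_L hL ha hb (H.smul_mem_pts hg hb) hba fun k => hba (smul_left_cancel g (k.trans e.symm))⟩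

theorem Hyp.norm_L (H : Hyp P) {L : Subgroup G} (hL : IsL L) {a : Ω} (ha : a ∈ pts P L) {g : G}
    (hg : ∀ x ∈ L, g * x * g⁻¹ ∈ L) (hK : g ∈ KK P a) : ∃ x ∈ P a, x⁻¹ * g ∈ centralizer (L : Set G) := by
  obtain ⟨b, hb, hba, x, hx, e⟩ := H.lb2_second hL ha hg (H.fix_of_K hK)
  obtain rfl := H.blk_eq_L hL ha hb hba.symm
  exact ⟨x, hx, H.W_of_K_L hba.symm hL (mul_mem (inv_mem (H.le_K a hx)) hK) (by rw [mul_smul, ← e, inv_smul_smul])⟩

theorem Hyp.fix_second_L (H : Hyp P) {L : Subgroup G} (hL : IsL L) {a : Ω} (ha : a ∈ pts P L) {g : G}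
    (hg : ∀ x ∈ L, g * x * g⁻¹ ∈ L) (e : g • a = a) (h1 : lam P a g ≠ 1) :
    ∃ c ∈ pts P L, c ≠ a ∧ g • c = c := by
  obtain ⟨b, hb, hba, x, hx, ex⟩ := H.lb2_second hL ha hg e
  obtain ⟨k, hk⟩ := (by decide : ∀ l : ZMod 11, l ≠ 1 → ∃ k : ZMod 11, k * l + 1 = k) _ h1
  have hy := pow_mem hx k.val
  refine ⟨x ^ k.val • b, H.smul_mem_pts (fun z hz => mul_mem (mul_mem (ha hy) hz) (inv_mem (ha hy))) hb,
    fun c => hba (smul_left_cancel _ (c.trans (H.fix_of_mem hy).symm)), ?_⟩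
  rw [← mul_smul, ← inv_mul_cancel_right (g * _) g, mul_smul, H.lam_spec e _ hy, ← ex, ← mul_smul, ← pow_mul,
    ← pow_succ, ← H.pow_val hx]
  simp [hk]

theorem Hyp.norm_dec_L (H : Hyp P) {a b : Ω} (hab : a ≠ b) (hL : IsL ↥(P a ⊔ P b)) {g : G}
    (hg : ∀ x ∈ P a ⊔ P b, g * x * g⁻¹ ∈ P a ⊔ P b) :
    ∃ l ∈ P a ⊔ P b, (l⁻¹ * g) • a = a ∧ (l⁻¹ * g) • b = b := by
  obtain ⟨l, hl, e⟩ := H.exists_smul (L := P a ⊔ P b) (by rw [hL.2]; norm_num) (lb2_l a b)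
    (H.smul_mem_pts hg (lb2_l a b))
  have e1 : (l⁻¹ * g) • a = a := by rw [mul_smul, ← e, inv_smul_smul]
  have m : (l⁻¹ * g) • b ∈ pts P (P a ⊔ P b) := by
    rw [mul_smul]
    exact H.smul_mem_pts (fun z hz => mul_mem (mul_mem (inv_mem hl) hz) (inv_mem (inv_mem hl)))
      (H.smul_mem_pts hg (lb2_r a b))
  obtain ⟨x, hx, ex⟩ := H.reg_L hL (lb2_l a b) (lb2_r a b) m hab.symm
    fun k => hab (smul_left_cancel _ (e1.trans k.symm))
  refine ⟨l * x, mul_mem hl (mem_sup_left hx), ?_, ?_⟩ <;> rw [mul_inv_rev, mul_assoc, mul_smul, inv_smul_eq_iff]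
  exacts [e1.trans (H.fix_of_mem hx).symm, ex.symm]

theorem Fr.lb2_pow {a b : Ω} {h t : G} (F : Fr P a b h t) (j : ℕ) : h ^ j • a = a ∧ h ^ j • b = b :=
  ⟨pow_mem (mem_stabilizer_iff.2 F.ha) j, pow_mem (mem_stabilizer_iff.2 F.hb) j⟩

theorem Fr.lb2_five {a b : Ω} {h t : G} (F : Fr P a b h t) : h ^ 5 = 1 := by
  rw [← F.h5, pow_orderOf_eq_one]

theorem Hyp.lb2_triv (H : Hyp P) {a b : Ω} (hab : a ≠ b) (hL : IsL ↥(P a ⊔ P b)) {c : G} (hc : c ∈ P a ⊔ P b)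
    (ea : c • a = a) (eb : c • b = b) (h1 : lam P a c = 1) : c = 1 :=
  H.eq_one_of_simple (Or.inl hL) hc (H.W_of_K_L hab hL ((H.lam_eq_one_iff ea).1 h1) eb)

theorem Fr.gam (H : Hyp P) {a b : Ω} {h t : G} (F : Fr P a b h t) (hL : IsL ↥(P a ⊔ P b)) {g : G}
    (ea : g • a = a) (eb : g • b = b) :
    ∃ (j : ℕ) (d : G), g = d * h ^ j ∧ d • a = a ∧ d • b = b ∧ (d ∈ WW P a b ∨ lam P a d = -1) ∧
      (lam P a g ^ 5 = 1 → d ∈ WW P a b) := by
  have h5 : lam P a h ^ 5 = 1 := by rw [← H.lam_pow F.ha, F.lb2_five, H.lam_one]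
  obtain ⟨j, hj⟩ := (by decide : ∀ m : ZMod 11, m ^ 5 = 1 → m ≠ 1 → ∀ l : ZMod 11, l ≠ 0 → ∃ j : Fin 5,
    ∀ x : ZMod 11, l = x * m ^ j.val → x = 1 ∨ (x = -1 ∧ l ^ 5 ≠ 1)) _ h5 F.hlam _ (H.lam_ne_zero ea)
  obtain ⟨pa, pb⟩ := F.lb2_pow j
  have da : (g * (h ^ j.val)⁻¹) • a = a := by rw [mul_smul, inv_smul_eq_iff.2 pa.symm, ea]
  have db : (g * (h ^ j.val)⁻¹) • b = b := by rw [mul_smul, inv_smul_eq_iff.2 pb.symm, eb]
  have := hj (lam P a (g * (h ^ j.val)⁻¹)) (by rw [← H.lam_pow F.ha, ← H.lam_mul da pa, inv_mul_cancel_right])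
  have k : lam P a (g * (h ^ j.val)⁻¹) = 1 → _ := fun k => H.W_of_K_L F.ne hL ((H.lam_eq_one_iff da).1 k) db
  exact ⟨j, _, (inv_mul_cancel_right _ _).symm, da, db, this.imp k And.left,
    fun e => this.elim k fun c => absurd e c.2⟩

theorem Fr.comm_h (H : Hyp P) {a b : Ω} {h t : G} (F : Fr P a b h t) (hL : IsL ↥(P a ⊔ P b)) {g : G}
    (ea : g • a = a) (eb : g • b = b) : Commute g h := by
  have ia : g⁻¹ • a = a := inv_smul_eq_iff.2 ea.symm
  have ja : h⁻¹ • a = a := inv_smul_eq_iff.2 F.ha.symm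
  have e1 : (g * h) • a = a := by rw [mul_smul, F.ha, ea]
  have e2 : (g * h * g⁻¹) • a = a := by rw [mul_smul, ia, e1]
  refine commutatorElement_eq_one_iff_commute.1 (H.lb2_triv F.ne hL
    (mul_mem (H.conj_mem_blk (by rw [ea, eb]) F.hL) (inv_mem F.hL)) (by rw [commutatorElement_def, mul_smul, ja, e2])
    (by simp only [commutatorElement_def, mul_smul, inv_smul_eq_iff.2 F.hb.symm, inv_smul_eq_iff.2 eb.symm, F.hb, eb])
    ?_)
  rw [commutatorElement_def, H.lam_mul e2 ja, H.lam_mul e1 ia, H.lam_mul ea F.ha]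
  linear_combination lam P a h⁻¹ * lam P a h * H.lam_inv ea + H.lam_inv F.ha

theorem Hyp.lam_pair_L (H : Hyp P) {a b : Ω} (hab : a ≠ b) (hL : IsL ↥(P a ⊔ P b)) {g : G} (ea : g • a = a)
    (eb : g • b = b) : lam P a g * lam P b g = 1 := by
  obtain ⟨h, t, F⟩ := H.exists_fr hab hL
  obtain ⟨j, d, rfl, da, db, hd, -⟩ := F.gam H hL ea eb
  obtain ⟨pa, pb⟩ := F.lb2_pow j
  have e1 : lam P b h * lam P a h = 1 := by
    have := H.lam_conj (inv_smul_eq_iff.2 F.ha.symm) t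
    rw [F.ta, ← conj_inv, F.inv, inv_inv] at this
    rw [this, H.lam_inv F.ha]
  have e2 : lam P a d * lam P b d = 1 := by
    rcases hd with hd | hd
    · rw [(H.lam_eq_one_iff da).2 (H.W_le_left a b hd), (H.lam_eq_one_iff db).2 (H.W_le_right a b hd), one_mul]
    have h2 : d * d ∈ WW P a b := H.W_of_K_L hab hL ((H.lam_eq_one_iff (by rw [mul_smul, da, da])).1
      (by rw [H.lam_mul da da, hd]; decide)) (by rw [mul_smul, db, db])
    rcases H.lam_of_sq db (H.W_le_right a b h2) with k | k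
    · have := H.W_of_K_L hab.symm (sup_comm (P a) (P b) ▸ hL) ((H.lam_eq_one_iff db).1 k) da
      rw [(H.lam_eq_one_iff da).2 (H.W_le_right b a this)] at hd
      exact absurd hd (by decide)
    · rw [hd, k]; decide
  rw [H.lam_mul da pa, H.lam_mul db pb, H.lam_pow F.ha, H.lam_pow F.hb, mul_mul_mul_comm, e2, ← mul_pow,
    mul_comm (lam P a h), e1, one_pow, one_mul]

theorem Fr.comm_t (H : Hyp P) {a b : Ω} {h t : G} (F : Fr P a b h t) (hL : IsL ↥(P a ⊔ P b)) {g : G}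
    (ea : g • a = a) (eb : g • b = b) (h1 : lam P a g = -1) : Commute g t := by
  have ia : g⁻¹ • a = a := inv_smul_eq_iff.2 ea.symm
  have ib : g⁻¹ • b = b := inv_smul_eq_iff.2 eb.symm
  have ja : t⁻¹ • a = b := inv_smul_eq_iff.2 F.tb.symm
  have jb : t⁻¹ • b = a := inv_smul_eq_iff.2 F.ta.symm
  have e1 : (t * g⁻¹ * t⁻¹) • a = a := by rw [mul_smul, ja, mul_smul, ib, F.tb]
  have h2 := H.lam_conj ib t
  rw [F.tb] at h2
  have h3 := H.lam_pair_L F.ne hL ea eb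
  have h4 := H.lam_inv eb
  have := H.lb2_triv F.ne hL (c := g * (t * g⁻¹ * t⁻¹))
    (by simpa [mul_assoc] using mul_mem (H.conj_mem_blk (by rw [ea, eb]) F.tL) (inv_mem F.tL))
    (by rw [mul_smul, e1, ea]) (by simp only [mul_smul, jb, ia, F.ta, eb]) (by
      rw [H.lam_mul ea e1, h2]
      rw [h1] at h3 ⊢
      exact (by decide : ∀ x y : ZMod 11, -1 * x = 1 → y * x = 1 → -1 * y = 1) _ _ h3 h4)
  calc g * t = g * (t * g⁻¹ * t⁻¹) * (t * g) := by group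
    _ = t * g := by rw [this, one_mul]

theorem Fr.swap (H : Hyp P) {a b : Ω} {h t : G} (F : Fr P a b h t) (hL : IsL ↥(P a ⊔ P b)) {s : G}
    (h2 : s * s = 1) (e : s • a = b) :
    ∃ j < 5, ∃ d : G, d * d = 1 ∧ d • a = a ∧ d • b = b ∧ s = t * h ^ j * d := by
  have sb : s • b = a := by rw [← e, ← mul_smul, h2, one_smul]
  obtain ⟨j, d, e1, da, db, hd, -⟩ := F.gam H hL (g := t * s) (by rw [mul_smul, e, F.tb]) (by rw [mul_smul, sb, F.ta])
  have ch := (F.comm_h H hL da db).pow_right j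
  have ct : Commute d t := hd.elim (fun k => (k t F.tL).symm) (F.comm_t H hL da db)
  have e2 : s = t * h ^ j * d := by rw [mul_assoc, ← ch.eq, ← e1, ← mul_assoc, F.t2, one_mul]
  refine ⟨j % 5, Nat.mod_lt _ (by norm_num), d, ?_, da, db, by rw [← pow_eq_pow_mod j F.lb2_five, e2]⟩
  have e3 : t * h ^ j * (t * h ^ j) = 1 := by
    rw [← mul_assoc, ← inv_eq_of_mul_eq_one_right F.t2, inv_eq_of_mul_eq_one_right F.t2]
    nth_rw 2 [← inv_eq_of_mul_eq_one_right F.t2]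
    rw [← conj_pow, F.inv, inv_pow, inv_mul_cancel]
  rwa [e2, (ct.mul_right ch).mul_mul_mul_comm, e3, one_mul] at h2

theorem Fr.outer (H : Hyp P) {a b : Ω} {h t : G} (F : Fr P a b h t) (hL : IsL ↥(P a ⊔ P b)) {d : G}
    (h2 : d * d = 1) (ea : d • a = a) (eb : d • b = b) (h1 : lam P a d = -1) :
    (∀ j : ℕ, IsConj d (t * h ^ j * d)) ∧ ∃ u : G, orderOf u = 4 := by
  have : Fact (Nat.Prime 2) := ⟨Nat.prime_two⟩
  have ch := F.comm_h H hL ea eb
  have ct := F.comm_t H hL ea eb h1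
  have t1 : t ≠ 1 := fun k => F.ne (by rw [← F.ta, k, one_smul])
  have ti : t⁻¹ = t := inv_eq_of_mul_eq_one_right F.t2
  have dN : d ∈ normalizer ((P a ⊔ P b : Subgroup G) : Set G) :=
    mem_normalizer_fintype fun x hx => H.conj_mem_blk (by rw [ea, eb]) hx
  have p2 : ∀ x : G, x * x = 1 → IsPGroup 2 (zpowers x) := fun x hx y => by
    obtain ⟨_, k, rfl⟩ := y
    exact ⟨1, Subtype.ext (by
      show (x ^ k) ^ 2 ^ 1 = 1
      rw [pow_one, ← zpow_natCast, ← zpow_mul, mul_comm, zpow_mul, zpow_natCast, pow_two, hx, one_zpow])⟩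
  obtain ⟨S, hS, le⟩ := H42.exists_sylIn ((p2 d h2).to_sup_of_normal_right' (p2 t F.t2) (zpowers_le.2
    (centralizer_le_normalizer _ (by rintro _ ⟨k, rfl⟩; exact (ct.zpow_right k).eq.symm))))
    (sup_le (zpowers_le.2 dN) (zpowers_le.2 (le_normalizer F.tL)))
  have hU := hS.inf_normal le_normalizer le_rfl
  have dS : d ∈ S := le (mem_sup_left (mem_zpowers d))
  have tU : t ∈ S ⊓ (P a ⊔ P b) := ⟨le (mem_sup_right (mem_zpowers t)), F.tL⟩
  have dU : ∀ x ∈ S ⊓ (P a ⊔ P b), d * x * d⁻¹ ∈ S ⊓ (P a ⊔ P b) := fun x hx =>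
    ⟨S.mul_mem (S.mul_mem dS hx.1) (S.inv_mem dS), (mem_normalizer_iff.1 dN x).1 hx.2⟩
  generalize S ⊓ (P a ⊔ P b) = U at hU tU dU
  have c4 : Nat.card U = 4 := by
    obtain ⟨k, hk⟩ := IsPGroup.iff_card.1 hU.isP
    have e := (U.subgroupOf (P a ⊔ P b)).card_mul_index
    have n := hU.ndvd
    rw [Nat.card_congr (subgroupOfEquivOfLe hU.le).toEquiv, hL.2, hk, ← relIndex] at e
    rw [hk]
    rcases k with _ | _ | _ | k
    · omega
    · omega
    · rfl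
    · exact absurd (e ▸ Dvd.dvd.mul_right (pow_dvd_pow 2 (by omega : 3 ≤ k + 1 + 1 + 1)) _) (by norm_num)
  obtain ⟨v, hv, v1⟩ : ∃ v ∈ U, v ∉ ({1, t} : Set G) :=
    Set.exists_mem_notMem_of_ncard_lt_ncard (by rw [Set.ncard_pair t1.symm]; exact (by norm_num : 2 < 4).trans_eq c4.symm)
  rw [Set.mem_insert_iff, Set.mem_singleton_iff, not_or] at v1
  have all : ∀ x ∈ U, x = 1 ∨ x = t ∨ x = v ∨ x = t * v := fun x hx => by
    have : ({1, t, v, t * v} : Set G) = U := Set.eq_of_subset_of_ncard_le (by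
      rintro _ (rfl | rfl | rfl | rfl)
      exacts [one_mem _, tU, hv, mul_mem tU hv]) (c4.le.trans_eq (Set.ncard_eq_four.2 ⟨_, _, _, _, t1.symm, Ne.symm v1.1,
        fun k => v1.2 (by rw [← ti]; exact eq_inv_of_mul_eq_one_right k.symm), Ne.symm v1.2,
        fun k => v1.1 (left_eq_mul.1 k), fun k => t1 (right_eq_mul.1 k), rfl⟩).symm)
    exact this.ge hx
  have vt : v * t = t * v := by
    rcases all _ (mul_mem hv tU) with k | k | k | k
    exacts [absurd ((eq_inv_of_mul_eq_one_left k).trans ti) v1.2, absurd (mul_eq_right.1 k) v1.1,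
      absurd (mul_eq_left.1 k) t1, k]
  have fix : ∀ x ∈ U, x • a = a → x • b = b → x = 1 := fun x hx xa xb => by
    obtain ⟨k, rfl⟩ := mem_powers_iff_mem_zpowers.2 (F.two x (hU.le hx) xa xb)
    have e4 : (h ^ k) ^ 4 = 1 := by
      rw [← c4]; exact congrArg Subtype.val (pow_card_eq_one' (x := (⟨_, hx⟩ : U)))
    have e5 : (h ^ k) ^ 5 = 1 := by rw [← pow_mul, mul_comm, pow_mul, F.lb2_five, one_pow]
    rwa [pow_succ, e4, one_mul] at e5
  have dv : d * v * d⁻¹ = t * v := by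
    rcases all _ (dU v hv) with k | k | k | k
    · exact absurd (conj_eq_one_iff.1 k) v1.1
    · exact absurd (by rw [← mul_inv_cancel_right t d, ← ct.eq] at k; simpa using k) v1.2
    · exfalso
      have two : ∀ c, c ∈ pts P (P a ⊔ P b) → d • c = c → v • c = a ∨ v • c = b := fun c hc e => by
        by_contra n
        rw [not_or] at n
        have := H.three_L F.ne hL (H.smul_mem_pts (fun z hz => mul_mem (mul_mem (hU.le hv) hz) (inv_mem (hU.le hv))) hc)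
          n.1 n.2 ea eb (by rw [← mul_smul, mul_inv_eq_iff_eq_mul.1 k, mul_smul, e])
        rw [(H.lam_eq_one_iff ea).2 (H.W_le_left a b this)] at h1
        exact absurd h1 (by decide)
      rcases two a (lb2_l a b) ea with x | x <;> rcases two b (lb2_r a b) eb with y | y
      · exact F.ne (smul_left_cancel v (x.trans y.symm))
      · exact v1.1 (fix v hv x y)
      · exact v1.2 ((eq_inv_of_mul_eq_one_right (fix _ (mul_mem tU hv) (by rw [mul_smul, x, F.tb])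
          (by rw [mul_smul, y, F.ta]))).trans ti)
      · exact F.ne (smul_left_cancel v (x.trans y.symm))
    · exact k
  have o4 : ∀ u : G, u * u = t → orderOf u = 4 := fun u k =>
    orderOf_eq_prime_pow (p := 2) (n := 1) (by rw [pow_one, pow_two, k]; exact t1)
      (by rw [show 2 ^ (1 + 1) = 2 * 2 from rfl, pow_mul, pow_two u, k, pow_two, F.t2])
  refine ⟨fun j => isConj_iff.2 ⟨h ^ (2 * j) * v⁻¹, ?_⟩, ?_⟩
  · have e1 : v⁻¹ * d * v = t * d := by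
      rw [mul_assoc, mul_inv_eq_iff_eq_mul.1 dv, ← vt]; group
    have e2 : h ^ (2 * j) * t = t * (h ^ (2 * j))⁻¹ := by
      rw [eq_comm, ← mul_inv_eq_iff_eq_mul, ← conj_inv, ← conj_pow, F.inv, inv_pow, inv_inv]
    have e3 : (h ^ (2 * j))⁻¹ * (h ^ (2 * j))⁻¹ = h ^ j := by
      rw [← mul_inv_rev, inv_eq_iff_mul_eq_one, ← pow_add, ← pow_add, show 2 * j + 2 * j + j = 5 * j by ring, pow_mul,
        F.lb2_five, one_pow]
    calc _ = h ^ (2 * j) * (v⁻¹ * d * v) * (h ^ (2 * j))⁻¹ := by group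
      _ = h ^ (2 * j) * t * (h ^ (2 * j))⁻¹ * d := by
        rw [e1, mul_assoc, mul_assoc t d, ((ch.pow_right _).inv_right).eq]; group
      _ = _ := by rw [e2, mul_assoc t, e3]
  · rcases all _ (mul_mem hv hv) with k | k | k | k
    · refine ⟨v * d, o4 _ ?_⟩
      calc _ = v * (d * v * d⁻¹) * (d * d) := by group
        _ = t := by rw [dv, h2, mul_one, ← mul_assoc, vt, mul_assoc, k, mul_one]
    · exact ⟨v, o4 _ k⟩
    · exact absurd (mul_eq_left.1 k) v1.1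
    · exact absurd (mul_right_cancel k) v1.2

theorem Fr.card_GG (H : Hyp P) {a b : Ω} {h t : G} (F : Fr P a b h t) (hL : IsL ↥(P a ⊔ P b)) :
    Nat.card ↥(WW P a b ⊔ zpowers h) = 5 * Nat.card (WW P a b) ∧
      (Nat.card (GG G a b) = 5 * Nat.card (WW P a b) ∨ Nat.card (GG G a b) = 10 * Nat.card (WW P a b)) ∧
      ∀ g ∈ WW P a b ⊔ zpowers h, ∃ w ∈ WW P a b, ∃ j < 5, g = w * h ^ j := by
  have dec : ∀ g ∈ WW P a b ⊔ zpowers h, ∃ w ∈ WW P a b, ∃ j < 5, g = w * h ^ j := fun g hg => by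
    have : g ∈ ((WW P a b ⊔ zpowers h : Subgroup G) : Set G) := hg
    rw [coe_mul_of_right_le_normalizer_left _ _ (zpowers_le.2
      (centralizer_le_normalizer _ fun w hw => (hw h F.hL).symm))] at this
    obtain ⟨w, hw, y, hy, rfl⟩ := this
    obtain ⟨k, rfl⟩ := mem_powers_iff_mem_zpowers.2 hy
    exact ⟨w, hw, k % 5, Nat.mod_lt _ (by norm_num), by rw [← pow_eq_pow_mod k F.lb2_five]⟩
  have c1 : Nat.card ↥(WW P a b ⊔ zpowers h) = 5 * Nat.card (WW P a b) := by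
    rw [← Nat.card_eq_of_bijective (fun p : Fin 5 × WW P a b => (⟨p.2 * h ^ p.1.val, mul_mem (mem_sup_left p.2.2)
      (mem_sup_right (pow_mem (mem_zpowers h) _))⟩ : ↥(WW P a b ⊔ zpowers h))) ⟨?_, ?_⟩]
    · simp
    · rintro ⟨i, w⟩ ⟨j, w'⟩ e
      have e1 : (w : G) * h ^ i.val = w' * h ^ j.val := congrArg Subtype.val e
      have e2 : h ^ i.val * (h ^ j.val)⁻¹ = 1 := H.eq_one_of_simple (Or.inl hL)
        (mul_mem (pow_mem F.hL _) (inv_mem (pow_mem F.hL _))) (by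
          rw [show h ^ i.val * (h ^ j.val)⁻¹ = (w : G)⁻¹ * w' by rw [eq_inv_mul_iff_mul_eq, ← mul_assoc, e1]; group]
          exact mul_mem (inv_mem w.2) w'.2)
      obtain rfl : i = j := Fin.ext (pow_injOn_Iio_orderOf (by rw [F.h5]; exact i.2) (by rw [F.h5]; exact j.2)
        (mul_inv_eq_one.1 e2))
      exact Prod.ext rfl (Subtype.ext (mul_right_cancel e1))
    · rintro ⟨g, hg⟩
      obtain ⟨w, hw, j, hj, rfl⟩ := dec g hg
      exact ⟨(⟨j, hj⟩, ⟨w, hw⟩), rfl⟩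
  refine ⟨c1, ?_, dec⟩
  obtain ⟨e, he, c2⟩ := H.card_stab_dvd (GG G a b) (a := a) fun g hg => hg.1
  have hW : WW P a b ≤ GG G a b := fun w hw => ⟨H.fix_of_K (H.W_le_left a b hw), H.fix_of_K (H.W_le_right a b hw)⟩
  rw [show GG G a b ⊓ KK P a = WW P a b from le_antisymm (fun g hg => H.W_of_K_L F.ne hL hg.2 hg.1.2)
    (le_inf hW (H.W_le_left a b))] at c2
  have := card_dvd_of_le (sup_le hW (zpowers_le.2 (show h ∈ GG G a b from ⟨F.ha, F.hb⟩)))
  rw [c1, c2, Nat.mul_dvd_mul_iff_right Nat.card_pos] at this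
  have h10 := Nat.le_of_dvd (by norm_num) he
  rw [c2]
  interval_cases e <;> simp_all

end Cfsg.Agent.E11
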