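import Cfsg.Agent.E11.JB1
import Cfsg.Agent.E11.LB2
import Cfsg.Agent.H49.SylowOf

set_option autoImplicit false
set_option linter.unusedSectionVars false

namespace Cfsg.Agent.E11

open Subgroup MulAction

variable {G Ω : Type*} [Group G] [Finite G] [MulAction G Ω] [Finite Ω] {P : Ω → Subgroup G}

theorem Hyp.one_of_J (H : Hyp P) {J : Subgroup G} (hJ : IsJ J) {a b : Ω} (ha : a ∈ pts P J) (hab : a ≠ b)
    {x : G} (hx : x ∈ J) (ea : x • a = a) (eb : x • b = b) (h1 : lam P a x = 1) : x = 1 := by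
  by_contra hn
  exact hab (H.semireg (H.K_J hJ ha hx ((H.lam_eq_one_iff ea).1 h1)) hn eb).symm

theorem Hyp.lam_mul_K (H : Hyp P) {a : Ω} {g c : G} (e : g • a = a) (hc : c ∈ KK P a) :
    lam P a (g * c) = lam P a g := by
  rw [H.lam_mul e (H.fix_of_K hc), (H.lam_eq_one_iff (H.fix_of_K hc)).2 hc, mul_one]

theorem Hyp.dec_J (H : Hyp P) {a b : Ω} (hJ : IsJ ↥(P a ⊔ P b)) {g : G} (ea : g • a = a) (eb : g • b = b) :
    ∃ l ∈ P a ⊔ P b, l⁻¹ * g ∈ WW P a b ∧ l • a = a ∧ l • b = b ∧ lam P a l = lam P a g ∧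
      lam P b l = lam P b g := by
  obtain ⟨l, hl, hc⟩ := hJ.inner (g := g) fun x hx => H.conj_mem_blk (by rw [ea, eb]) hx
  have e : l = g * (l⁻¹ * g)⁻¹ := by group
  have h1 := inv_mem (H.W_le_left a b hc)
  have h2 := inv_mem (H.W_le_right a b hc)
  refine ⟨l, hl, hc, ?_, ?_, ?_, ?_⟩
  · rw [e, mul_smul, H.fix_of_K h1, ea]
  · rw [e, mul_smul, H.fix_of_K h2, eb]
  · exact (congrArg _ e).trans (H.lam_mul_K ea h1)
  · exact (congrArg _ e).trans (H.lam_mul_K eb h2)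

theorem Hyp.W_of_K_J (H : Hyp P) {a b : Ω} (hab : a ≠ b) (hJ : IsJ ↥(P a ⊔ P b)) {g : G} (hg : g ∈ KK P a)
    (e : g • b = b) : g ∈ WW P a b := by
  obtain ⟨l, hl, hc, la, lb, h1, -⟩ := H.dec_J hJ (H.fix_of_K hg) e
  rw [(H.lam_eq_one_iff (H.fix_of_K hg)).2 hg] at h1
  obtain rfl := H.one_of_J hJ (le_sup_left : P a ≤ _) hab hl la lb h1
  simpa using hc

theorem conj_five {B : Subgroup G} (hB : Nat.card B = 110) {u v : G} (hu : u ∈ B) (hv : v ∈ B)
    (ou : orderOf u = 5) (ov : orderOf v = 5) : ∃ m ∈ B, m * v * m⁻¹ ∈ zpowers u := by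
  have h5 : Nat.Prime 5 := by norm_num
  have pi : ∀ x : G, orderOf x = 5 → H49.IsPi {5} (zpowers x) := fun x hx =>
    H49.isPi_of_card_eq_prime h5 (by rw [Nat.card_zpowers, hx])
  have h1 := H49.card_mul_relIndex (zpowers_le.2 hu)
  rw [Nat.card_zpowers, ou, hB] at h1
  obtain ⟨m, hm, e⟩ := H49.sylowOf_subJ ((H49.sylowOf_iff h5).2
    ⟨zpowers_le.2 hu, (pi u ou).isPGroup h5, by omega⟩) (zpowers_le.2 hv) (pi v ov)
  exact ⟨m, hm, e (H49.conj_mem_cj.2 (mem_zpowers v))⟩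

theorem Hyp.lam_pair_J (H : Hyp P) {a b : Ω} (hab : a ≠ b) (hJ : IsJ ↥(P a ⊔ P b)) {g s : G} (ea : g • a = a)
    (eb : g • b = b) (sa : s • a = a) (sb : s • b = b) (h1 : lam P a s = -1) :
    lam P a (g * g) * lam P b (g * g) = 1 := by
  haveI : Fact (Nat.Prime 5) := ⟨by norm_num⟩
  have pa : a ∈ pts P (P a ⊔ P b) := (le_sup_left : P a ≤ _)
  have pb : b ∈ pts P (P a ⊔ P b) := (le_sup_right : P b ≤ _)
  obtain ⟨g, hg, -, ea, eb, e1, e2⟩ : ∃ l ∈ P a ⊔ P b, l⁻¹ * g ∈ WW P a b ∧ l • a = a ∧ l • b = b ∧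
      lam P a (l * l) = lam P a (g * g) ∧ lam P b (l * l) = lam P b (g * g) := by
    obtain ⟨l, hl, hc, la, lb, h1, h2⟩ := H.dec_J hJ ea eb
    exact ⟨l, hl, hc, la, lb, by rw [H.lam_mul la la, H.lam_mul ea ea, h1],
      by rw [H.lam_mul lb lb, H.lam_mul eb eb, h2]⟩
  rw [← e1, ← e2]
  obtain ⟨s, hs, -, sa, sb, e3, -⟩ := H.dec_J hJ sa sb
  rw [h1] at e3
  have ua : (g * g) • a = a := by rw [mul_smul, ea, ea]
  have ub : (g * g) • b = b := by rw [mul_smul, eb, eb]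
  have l5 : lam P a (g * g) ^ 5 = 1 := by rw [H.lam_mul ea ea, ← pow_two, ← pow_mul, H.lam_pow_ten ea]
  have hu := mul_mem hg hg
  generalize g * g = u at ua ub l5 hu
  by_cases u1 : u = 1
  · rw [u1, H.lam_one, H.lam_one, mul_one]
  have lu : lam P a u ≠ 1 := fun e => u1 (H.one_of_J hJ pa hab hu ua ub e)
  have ou : orderOf u = 5 := orderOf_eq_prime (H.one_of_J hJ pa hab (pow_mem hu 5)
    (pow_mem (mem_stabilizer_iff.2 ua) 5) (pow_mem (mem_stabilizer_iff.2 ub) 5)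
    (by rw [H.lam_pow ua, l5])) u1
  have s2 : s * s = 1 := H.one_of_J hJ pa hab (mul_mem hs hs) (by rw [mul_smul, sa, sa])
    (by rw [mul_smul, sb, sb]) (by rw [H.lam_mul sa sa, e3]; decide)
  have s1 : s ≠ 1 := fun e => by rw [e, H.lam_one] at e3; exact absurd e3 (by decide)
  have lb : lam P b s = -1 := (H.lam_of_sq sb (s2 ▸ one_mem _)).resolve_left
    fun e => s1 (H.one_of_J hJ pb hab.symm hs sb sa e)
  have su : Commute s u := by
    have f : ∀ c : Ω, s • c = c → u • c = c → (s * u * s⁻¹ * u⁻¹) • c = c := fun c h1 h2 =>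
      mem_stabilizer_iff.1 (mul_mem (mul_mem (mul_mem (mem_stabilizer_iff.2 h1) (mem_stabilizer_iff.2 h2))
        (inv_mem (mem_stabilizer_iff.2 h1))) (inv_mem (mem_stabilizer_iff.2 h2)))
    have h2 := H.lam_conj ua s
    rw [sa] at h2
    have h3 := H.one_of_J hJ pa hab (mul_mem (mul_mem (mul_mem hs hu) (inv_mem hs)) (inv_mem hu))
      (f a sa ua) (f b sb ub) (by
        rw [H.lam_mul (by rw [mul_smul, mul_smul, inv_smul_eq_iff.2 sa.symm, ua, sa])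
          (inv_smul_eq_iff.2 ua.symm), h2, mul_comm, H.lam_inv ua])
    rw [mul_inv_eq_one, mul_inv_eq_iff_eq_mul] at h3
    exact h3
  obtain ⟨l0, hl0, e0⟩ := H.exists_smul (by rw [hJ.card]; norm_num) pa pb
  obtain ⟨m, hm, hmu⟩ := conj_five (H.card_stab_J hJ pb).1 (u := u) (v := l0 * u * l0⁻¹)
    (mem_inf.2 ⟨hu, ub⟩) (mem_inf.2 ⟨mul_mem (mul_mem hl0 hu) (inv_mem hl0), by
      rw [mem_stabilizer_iff, ← e0, mul_smul, inv_smul_smul, mul_smul, ua]⟩) ou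
    ((MulAut.conj l0).orderOf_eq u ▸ ou)
  have hl : m * l0 ∈ P a ⊔ P b := mul_mem (mem_inf.1 hm).1 hl0
  have el : (m * l0) • a = b := by rw [mul_smul, e0]; exact (mem_inf.1 hm).2
  have hlu : m * l0 * u * (m * l0)⁻¹ ∈ zpowers u := by convert hmu using 1; group
  generalize m * l0 = l at hl el hlu
  have fb : ∀ x : G, x • a = a → (l * x * l⁻¹) • b = b := fun x hx => by
    rw [← el, mul_smul, inv_smul_smul, mul_smul, hx]
  have lb' : ∀ x : G, x • a = a → lam P b (l * x * l⁻¹) = lam P a x := fun x hx => by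
    rw [← el, H.lam_conj hx]
  have hy : l * s * l⁻¹ * s ∈ P b := H.K_J hJ pb (mul_mem (mul_mem (mul_mem hl hs) (inv_mem hl)) hs)
    ((H.lam_eq_one_iff (by rw [mul_smul, sb, fb s sa])).1 (by
      rw [H.lam_mul (fb s sa) sb, lb' s sa, e3, lb]; decide))
  have cy : Commute (l * s * l⁻¹ * s) (l * u * l⁻¹) := by
    refine Commute.mul_left (su.map (MulAut.conj l)) ?_
    obtain ⟨i, hi⟩ := mem_zpowers_iff.1 hlu
    exact hi ▸ su.zpow_right i
  have y1 : l * s * l⁻¹ * s = 1 := by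
    by_contra hn
    refine lu ((lb' u ua).symm.trans (H.lam_eq (fb u ua) hy hn ?_))
    rw [← cy.eq, mul_inv_cancel_right, show (1 : ZMod 11).val = 1 from rfl, pow_one]
  have sl : Commute s l := by
    have : l * s * l⁻¹ = s := by rw [← s2] at y1; exact mul_right_cancel y1
    rw [mul_inv_eq_iff_eq_mul] at this
    exact this.symm
  rcases (hJ.five hs hu (orderOf_eq_prime (by rw [pow_two, s2]) s1) ou su).2 l hl sl hlu with e | e
  · rw [← lb' u ua, e, H.lam_inv ub]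
  · have : zpowers u ⊔ zpowers s ≤ stabilizer G a := sup_le (zpowers_le.2 ua) (zpowers_le.2 sa)
    exact absurd ((mem_stabilizer_iff.1 (this e)).symm.trans el) hab

open H49 in
theorem Hyp.not_L (H : Hyp P) {J : Subgroup G} (hJ : IsJ J) {a b : Ω} (ha : a ∈ pts P J) (hb : b ∈ pts P J)
    (hab : a ≠ b) {s : G} (hs : s ∈ J) (h2 : s * s = 1) (ea : s • a = a) (eb : s • b = b)
    (h1 : lam P a s = -1) : ¬ IsL ↥(P a ⊔ P b) := fun hL => by
  have hn : zpowers s ≤ normalizer ((P a ⊔ P b : Subgroup G) : Set G) :=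
    zpowers_le.2 (H49.mem_norm_of_cj_le fun x hx => by
      obtain ⟨y, hy, rfl⟩ := H49.mem_cj'.1 hx
      exact H.conj_mem_blk (by rw [ea, eb]) hy)
  have pi : H49.IsPi {2} (zpowers s) := H49.isPi_of_isPGroup Nat.prime_two fun x => ⟨1, by
    obtain ⟨_, i, rfl⟩ := x
    refine Subtype.ext ?_
    change (s ^ i) ^ 2 ^ 1 = 1
    rw [← zpow_natCast, ← zpow_mul, mul_comm, zpow_mul, zpow_natCast, pow_one, pow_two, h2, one_zpow]⟩
  obtain ⟨S, hS, sS⟩ := H49.exists_sylowOf_ge pi (le_sup_right : _ ≤ P a ⊔ P b ⊔ zpowers s)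
  have hV := hS.inf_normal le_sup_left (sup_le le_normalizer hn)
  have hSJ : S ≤ J := hS.le.trans (sup_le (sup_le ha hb) (zpowers_le.2 hs))
  have sq : ∀ x ∈ S, x * x = 1 := fun x hx => by
    obtain ⟨n, hn⟩ := hS.pi.isPGroup Nat.prime_two ⟨x, hx⟩
    have hn : x ^ 2 ^ n = 1 := congrArg Subtype.val hn
    have key : ∀ n : ℕ, ∀ x ∈ J, x ^ 2 ^ n = 1 → x * x = 1 := fun n => by
      induction n with
      | zero => intro x _ h; rw [pow_zero, pow_one] at h; rw [h, one_mul]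
      | succ n ih =>
        intro x hx h
        have := ih (x ^ 2) (pow_mem hx 2) (by rw [← pow_mul, ← pow_succ', h])
        exact hJ.sq hx (by rw [← this, ← pow_add])
    exact key n x (hSJ hx) hn
  have cs : ∀ x ∈ S, s * x = x * s := fun x hx => by
    have h3 := sq _ (mul_mem (sS (mem_zpowers s)) hx)
    calc s * x = (s * x)⁻¹ := eq_inv_of_mul_eq_one_left h3
      _ = x * s := by
        rw [mul_inv_rev, inv_eq_of_mul_eq_one_right h2, inv_eq_of_mul_eq_one_right (sq x hx)]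
  have h4 := dvd_ncard_of_free (S ⊓ (P a ⊔ P b)) {c ∈ pts P (P a ⊔ P b) | s • c = c}
    (fun v hv c hc => ⟨H.smul_mem_pts (fun x hx => mul_mem (mul_mem (mem_inf.1 hv).2 hx)
      (inv_mem (mem_inf.1 hv).2)) hc.1, by rw [← mul_smul, cs v (mem_inf.1 hv).1, mul_smul, hc.2]⟩)
    fun v hv c hc e => H.inv_L hL hc.1 (mem_inf.1 hv).2 (sq v (mem_inf.1 hv).1) e
  have h5 : {c ∈ pts P (P a ⊔ P b) | s • c = c} = {a, b} := by
    refine Set.Subset.antisymm (fun c hc => ?_) ?_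
    · by_contra hn
      rw [Set.mem_insert_iff, Set.mem_singleton_iff, not_or] at hn
      have := (H.lam_eq_one_iff ea).2 (H.W_le_left a b (H.three_L hab hL hc.1 hn.1 hn.2 ea eb hc.2))
      rw [h1] at this
      exact absurd this (by decide)
    · rintro c (rfl | rfl)
      · exact ⟨(le_sup_left : P c ≤ _), ea⟩
      · exact ⟨(le_sup_right : P c ≤ _), eb⟩
  rw [h5, Set.ncard_pair hab] at h4
  have h6 := H49.card_mul_relIndex hV.le
  have h7 := ((H49.sylowOf_iff Nat.prime_two).1 hV).2.2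
  rw [hL.2] at h6
  rcases (Nat.dvd_prime Nat.prime_two).1 h4 with e | e <;> rw [e] at h6 <;> omega

theorem Hyp.antipode (H : Hyp P) {J : Subgroup G} (hJ : IsJ J) {a : Ω} (ha : a ∈ pts P J) {s : G} (hs : s ∈ J)
    (h2 : s * s = 1) (e : s • a = a) (h1 : lam P a s = -1) :
    ∃ (h : G) (a' : Ω), h • a = a ∧ lam P a h ^ 2 ≠ 1 ∧ Commute s h ∧ a' ∈ pts P J ∧ a' ≠ a ∧ s • a' = a' ∧
      h • a' = a' ∧ ¬ IsL ↥(P a ⊔ P a') := by
  obtain ⟨h, hh, o5, ea, l1, sh⟩ := H.exists_five_J hJ ha hs h2 e h1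
  have s1 : s ≠ 1 := fun e => by rw [e, H.lam_one] at h1; exact absurd h1 (by decide)
  obtain ⟨t, ht, st, e2⟩ := (hJ.five hs hh (orderOf_eq_prime (by rw [pow_two, h2]) s1) o5 sh).1
  have l5 : lam P a h ^ 5 = 1 := by rw [← H.lam_pow ea, ← o5, pow_orderOf_eq_one, H.lam_one]
  have l2 : lam P a h ^ 2 ≠ 1 :=
    (by decide : ∀ k : ZMod 11, k ^ 5 = 1 → k ≠ 1 → k ^ 2 ≠ 1) _ l5 l1
  have pa := H.smul_mem_pts (fun x hx => mul_mem (mul_mem ht hx) (inv_mem ht)) ha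
  have ne : t • a ≠ a := fun e3 => by
    have := H.lam_conj ea t
    rw [e3, e2] at this
    exact l2 (by rw [pow_two]; nth_rewrite 1 [← this]; exact H.lam_inv ea)
  have sa : s • t • a = t • a := by rw [← mul_smul, st.eq, mul_smul, e]
  refine ⟨h, t • a, ea, l2, sh, pa, ne, sa, ?_, H.not_L hJ ha pa ne.symm hs h2 e sa h1⟩
  rw [smul_eq_iff_eq_inv_smul, ← e2, mul_smul, inv_smul_smul, mul_smul, ea]

theorem Hyp.W_of_K (H : Hyp P) {a b : Ω} (hab : a ≠ b) {g : G} (hg : g ∈ KK P a) (e : g • b = b) :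
    g ∈ WW P a b :=
  (H.pair a b hab).elim (fun h => H.W_of_K_L hab h hg e) fun h => H.W_of_K_J hab h hg e

theorem Hyp.K_of_K (H : Hyp P) {a b : Ω} {g : G} (hg : g ∈ KK P a) (e : g • b = b) : g ∈ KK P b := by
  by_cases hab : a = b
  · exact hab ▸ hg
  · exact H.W_le_right a b (H.W_of_K hab hg e)

theorem Hyp.lam_pair_sq (H : Hyp P) {a b : Ω} (hab : a ≠ b) {g s : G} (ea : g • a = a)
    (eb : g • b = b) (sa : s • a = a) (sb : s • b = b) (h1 : lam P a s = -1) :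
    lam P a (g * g) * lam P b (g * g) = 1 :=
  (H.pair a b hab).elim (fun h => H.lam_pair_L hab h (by rw [mul_smul, ea, ea]) (by rw [mul_smul, eb, eb]))
    fun h => H.lam_pair_J hab h ea eb sa sb h1

theorem Hyp.anti (H : Hyp P) {J : Subgroup G} (hJ : IsJ J) {a : Ω} (ha : a ∈ pts P J) {s : G} (hs : s ∈ J)
    (h2 : s * s = 1) (e : s • a = a) (h1 : lam P a s = -1) {b : Ω} (hb : b ≠ a) (eb : s • b = b) :
    IsJ ↥(P a ⊔ P b) := by
  refine (H.pair a b hb.symm).resolve_left fun hL => ?_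
  obtain ⟨h, a', ea, l2, sh, -, ne, sa', ha', nL⟩ := H.antipode hJ ha hs h2 e h1
  obtain ⟨h', t, F⟩ := H.exists_fr hb.symm hL
  let B : Subgroup G := stabilizer G a ⊓ centralizer {s}
  have fa : ∀ g ∈ B, g • a = a := fun g hg => (mem_inf.1 hg).1
  let B0 : Subgroup G :=
    { carrier := {g | g ∈ B ∧ lam P a g ^ 2 = 1}
      mul_mem' := fun {x y} hx hy => ⟨mul_mem hx.1 hy.1, by
        rw [H.lam_mul (fa x hx.1) (fa y hy.1), mul_pow, hx.2, hy.2, mul_one]⟩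
      one_mem' := ⟨one_mem _, by rw [H.lam_one, one_pow]⟩
      inv_mem' := fun {x} hx => ⟨inv_mem hx.1, by
        rw [← mul_one (_ ^ 2), ← hx.2, ← mul_pow, H.lam_inv (fa x hx.1), hx.2, one_pow]⟩ }
  have hA : ∀ c ∈ B, ∀ y ∈ {y | s • y = y ∧ y ≠ a}, c • y ∈ {y | s • y = y ∧ y ≠ a} := fun c hc y hy =>
    ⟨by rw [← mul_smul, ← mem_centralizer_singleton_iff.1 (mem_inf.1 hc).2, mul_smul, hy.1],
      fun e => hy.2 (smul_left_cancel c (e.trans (fa c hc).symm))⟩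
  have uq : ∀ g ∈ B, g ∉ B0 → ∀ y ∈ {y | s • y = y ∧ y ≠ a}, ∀ z ∈ {y | s • y = y ∧ y ≠ a},
      g • y = y → g • z = z → y = z := fun g hg hg0 y hy z hz gy gz => by
    by_contra hyz
    have ly : lam P y s = -1 := (H.lam_of_sq hy.1 (h2 ▸ one_mem _)).resolve_left fun e' => by
      rw [(H.lam_eq_one_iff e).2 (H.K_of_K ((H.lam_eq_one_iff hy.1).1 e') e)] at h1
      exact absurd h1 (by decide)
    have := (by decide : ∀ x y z : ZMod 11, x * y = 1 → x * z = 1 → y * z = 1 → x * x = 1) _ _ _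
      (H.lam_pair_sq hy.2.symm (fa g hg) gy e hy.1 h1) (H.lam_pair_sq hz.2.symm (fa g hg) gz e hz.1 h1)
      (H.lam_pair_sq hyz gy gz hy.1 hz.1 ly)
    rw [H.lam_mul (fa g hg) (fa g hg)] at this
    exact hg0 ⟨hg, (by decide : ∀ k : ZMod 11, k * k * (k * k) = 1 → k ^ 2 = 1) _ this⟩
  have hB : h ∈ B := mem_inf.2 ⟨ea, mem_centralizer_singleton_iff.2 sh.symm.eq⟩
  have hB' : h' ∈ B := mem_inf.2 ⟨F.ha, mem_centralizer_singleton_iff.2 (F.comm_h H hL e eb).symm.eq⟩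
  obtain ⟨c, hc, ec⟩ := orbit_cover B B0 (fun _ hx => hx.1)
    (fun c hc k hk => ⟨mul_mem (mul_mem hc hk.1) (inv_mem hc), by
      have := H.lam_conj (fa k hk.1) c
      rw [fa c hc] at this
      rw [this, hk.2]⟩) _ hA uq (y := b) ⟨eb, hb⟩ (fun g hg => by
      obtain ⟨j, hj⟩ := (by decide : ∀ x m : ZMod 11, x ≠ 0 → m ^ 5 = 1 → m ≠ 1 →
        ∃ j : Fin 5, ∀ k, k * m ^ j.val = x → k ^ 2 = 1) _ _ (H.lam_ne_zero (fa g hg))
        (by rw [← H.lam_pow F.ha, ← F.h5, pow_orderOf_eq_one, H.lam_one]) F.hlam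
      have h3 := pow_mem hB' j
      have h4 := mul_mem hg (inv_mem h3)
      exact ⟨g * (h' ^ j.val)⁻¹, ⟨h4, hj _ (by
        rw [← H.lam_pow F.ha, ← H.lam_mul (fa _ h4) (fa _ h3), inv_mul_cancel_right])⟩, _, h3,
        pow_mem (mem_stabilizer_iff.2 F.hb) _, by rw [inv_mul_cancel_right]⟩) hB fun h => l2 h.2
  have e' := uq h hB (fun h => l2 h.2) _ (hA c hc b ⟨eb, hb⟩) a' ⟨sa', ne⟩ ec ha'
  have e3 := H.blk_conj c a b
  rw [fa c hc, e'] at e3
  refine nL ?_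
  rw [e3]
  exact hL.of_equiv ((MulAut.conj c).subgroupMap _)

end Cfsg.Agent.E11
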