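import Cfsg.Agent.E11.Base
import Cfsg.Agent.H36.Simple

set_option autoImplicit false
set_option linter.unusedSectionVars false

namespace Cfsg.Agent.E11

open Subgroup MulAction

variable {G Ω : Type*} [Group G] [Finite G] [MulAction G Ω] [Finite Ω] {P : Ω → Subgroup G}

namespace LB1

theorem perf {X : Type*} [Group X] (hX : IsL X) : _root_.commutator X = ⊤ := by
  haveI := hX.1
  exact H36.commutator_eq_top_of_simple (by rw [hX.2]; norm_num)

theorem not121 {L : Subgroup G} (hL : IsL L) : ¬ 121 ∣ Nat.card L := by rw [hL.2]; norm_num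

/-- Burnside transfer for an abelian Sylow subgroup `Q` of `L` -/
theorem burn {L Q : Subgroup G} (hL : IsL L) {p : ℕ} [Fact p.Prime] (hQ : Q ≤ L)
    (hc : Nat.card Q = p ^ (Nat.factorization 660 p)) (hab : ∀ x ∈ Q, ∀ y ∈ Q, x * y = y * x) {x : G} (hx : x ∈ Q)
    (hn : ∀ g ∈ L, g ∈ normalizer (Q : Set G) → g * x = x * g) : x = 1 := by
  have hc' : Nat.card (Q.subgroupOf L) = p ^ (Nat.card L).factorization p := by
    rw [hL.2, ← hc]; exact Nat.card_congr (subgroupOfEquivOfLe hQ).toEquiv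
  let S : Sylow p L := Sylow.ofCard _ hc'
  have hS : ∀ y : L, y ∈ (S : Subgroup L) ↔ (y : G) ∈ Q := fun y => Iff.rfl
  have := H36.eq_one_of_centralizes_normalizer (perf hL) S
    (fun a ha b hb => Subtype.ext (hab _ ((hS a).1 ha) _ ((hS b).1 hb))) (z := ⟨x, hQ hx⟩) ((hS _).2 hx)
    (fun n hn' => Subtype.ext (hn n n.2 ?_))
  · exact congrArg Subtype.val this
  · refine mem_normalizer_iff.2 fun y => ⟨fun hy => ?_, fun hy => ?_⟩
    · exact (hS _).1 ((mem_normalizer_iff.1 hn' ⟨y, hQ hy⟩).1 ((hS _).2 hy))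
    · have hyL : y ∈ L := by
        have := L.mul_mem (L.mul_mem (L.inv_mem n.2) (hQ hy)) n.2
        simpa [mul_assoc] using this
      exact (hS _).1 ((mem_normalizer_iff.1 hn' ⟨y, hyL⟩).2 ((hS _).2 hy))

theorem smul_pts (H : Hyp P) {L : Subgroup G} {g : G} (hg : g ∈ L) {c : Ω} (hc : c ∈ pts P L) :
    g • c ∈ pts P L :=
  H.smul_mem_pts (fun _ hx => L.mul_mem (L.mul_mem hg hx) (L.inv_mem hg)) hc

theorem syl_card {X : Type*} [Group X] [Finite X] (hX : IsL X) (S : Sylow 2 X) : Nat.card (S : Subgroup X) = 2 ^ 2 :=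
  H36.card_sylow_eq S (m := 165) (by rw [hX.2]; norm_num) (by norm_num)

theorem syl_comm {X : Type*} [Group X] [Finite X] (hX : IsL X) (S : Sylow 2 X) :
    ∀ a ∈ (S : Subgroup X), ∀ b ∈ (S : Subgroup X), a * b = b * a := fun a ha b hb => by
  have := IsPGroup.commutative_of_card_eq_prime_sq (G := (S : Subgroup X)) (p := 2) (syl_card hX S) ⟨a, ha⟩ ⟨b, hb⟩
  exact congrArg Subtype.val this

theorem exists_move {X : Type*} [Group X] [Finite X] (hX : IsL X) (S : Sylow 2 X) {t : X} (ht : t ∈ (S : Subgroup X))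
    (h2 : orderOf t = 2) : ∃ n : X, n * t * n⁻¹ ∈ (S : Subgroup X) ∧ n * t * n⁻¹ ≠ t := by
  by_contra h
  push Not at h
  have := H36.eq_one_of_centralizes_normalizer (perf hX) S (syl_comm hX S) ht fun n hn => by
    have := h n ((mem_normalizer_iff.1 hn t).1 ht)
    rwa [mul_inv_eq_iff_eq_mul] at this
  rw [this, orderOf_one] at h2
  exact absurd h2 (by norm_num)

theorem ord_conj {X : Type*} [Group X] (n t : X) : orderOf (n * t * n⁻¹) = orderOf t :=
  (MulAut.conj n).orderOf_eq t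

theorem four' {X : Type*} [Group X] [Finite X] (hX : IsL X) {t : X} (h2 : orderOf t = 2) :
    ∃ v : X, orderOf v = 2 ∧ v ≠ t ∧ Commute t v := by
  obtain ⟨S, hS⟩ := H36.exists_sylow_mem (p := 2) (x := t) (k := 1) (by rw [pow_one, ← h2, pow_orderOf_eq_one])
  obtain ⟨n, hn, hne⟩ := exists_move hX S hS h2
  exact ⟨_, (ord_conj n t).trans h2, hne, syl_comm hX S _ hS _ hn⟩

theorem conj' {X : Type*} [Group X] [Finite X] (hX : IsL X) {s t : X} (h2 : orderOf s = 2) (h2' : orderOf t = 2) :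
    IsConj s t := by
  classical
  obtain ⟨S, hS⟩ := H36.exists_sylow_mem (p := 2) (x := s) (k := 1) (by rw [pow_one, ← h2, pow_orderOf_eq_one])
  obtain ⟨T, hT⟩ := H36.exists_sylow_mem (p := 2) (x := t) (k := 1) (by rw [pow_one, ← h2', pow_orderOf_eq_one])
  obtain ⟨g, hg⟩ := exists_smul_eq X T S
  set u := g * t * g⁻¹ with hu
  have huS : u ∈ (S : Subgroup X) := by
    rw [← hg, Sylow.coe_subgroup_smul]
    exact Subgroup.smul_mem_pointwise_smul t (MulAut.conj g) _ hT
  have hu2 : orderOf u = 2 := (ord_conj g t).trans h2'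
  have hut : IsConj u t := (isConj_iff.2 ⟨g, rfl⟩).symm
  refine IsConj.trans ?_ hut
  by_cases hsu : s = u
  · rw [hsu]
  have s1 : s ≠ 1 := by rintro rfl; simp at h2
  have u1 : u ≠ 1 := by intro e; rw [e] at hu2; simp at hu2
  have ss : s * s = 1 := by rw [← sq, ← h2, pow_orderOf_eq_one]
  have su1 : s * u ≠ 1 := fun e => hsu (mul_left_cancel (ss.trans e.symm))
  have all : ∀ y ∈ (S : Subgroup X), y = 1 ∨ y = s ∨ y = u ∨ y = s * u := by
    intro y hy
    have hsub : ({1, s, u, s * u} : Set X) ⊆ (S : Subgroup X) := by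
      intro w hw
      simp only [Set.mem_insert_iff, Set.mem_singleton_iff] at hw
      rcases hw with rfl | rfl | rfl | rfl
      exacts [one_mem _, hS, huS, mul_mem hS huS]
    have hc4 : ({1, s, u, s * u} : Set X).ncard = 4 := by
      rw [Set.ncard_insert_of_notMem, Set.ncard_insert_of_notMem, Set.ncard_pair]
      · intro e; exact s1 (by simpa using e.symm)
      · simp only [Set.mem_insert_iff, Set.mem_singleton_iff, not_or]
        exact ⟨hsu, fun e => u1 (by simpa using e.symm)⟩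
      · simp only [Set.mem_insert_iff, Set.mem_singleton_iff, not_or]
        exact ⟨s1.symm, u1.symm, su1.symm⟩
    have hS4 : ((S : Subgroup X) : Set X).ncard = 4 := by
      rw [← Nat.card_coe_set_eq]; exact syl_card hX S
    have := Set.eq_of_subset_of_ncard_le hsub (by rw [hc4, hS4])
    have hy' : y ∈ ((S : Subgroup X) : Set X) := hy
    rw [← this] at hy'
    simpa using hy'
  obtain ⟨n, hn, hne⟩ := exists_move hX S hS h2
  obtain ⟨m, hm, hme⟩ := exists_move hX S huS hu2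
  have c1 : IsConj s (n * s * n⁻¹) := isConj_iff.2 ⟨n, rfl⟩
  have c2 : IsConj u (m * u * m⁻¹) := isConj_iff.2 ⟨m, rfl⟩
  rcases all _ hn with e | e | e | e
  · exact absurd (by simpa using e) s1
  · exact absurd e hne
  · rwa [e] at c1
  rcases all _ hm with e' | e' | e' | e'
  · exact absurd (by simpa using e') u1
  · rw [e'] at c2; exact c2.symm
  · exact absurd e' hme
  · rw [e] at c1; rw [e'] at c2; exact c1.trans c2.symm

end LB1

open LB1

theorem Hyp.ncard_pts_L (H : Hyp P) {L : Subgroup G} (hL : IsL L) {a : Ω} (ha : a ∈ pts P L) :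
    (pts P L).ncard = 12 := by
  have h1 := H.card_pts (not121 hL) ha
  have h2 : Nat.card (P a) ∣ Nat.card ↥(L ⊓ stabilizer G a) :=
    card_dvd_of_le (le_inf ha fun x hx => H.fix_of_mem hx)
  have h3 := dvd_ncard_of_free (P a) (pts P L \ {a})
    (fun c hc y hy => ⟨smul_pts H (ha hc) hy.1, fun e => hy.2 (by
      have e' : c • y = a := e
      have := H.fix_of_mem (inv_mem hc)
      rw [← e', inv_smul_smul] at this
      exact this.trans e')⟩)
    (fun g hg y hy e => by
      by_contra h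
      exact hy.2 (H.semireg hg h e))
  rw [H.card] at h2 h3
  rw [Set.ncard_sdiff_singleton_of_mem ha] at h3
  obtain ⟨m, hm⟩ := h2
  rw [hL.2, hm] at h1
  have h4 : (pts P L).ncard ≠ 1 := by
    intro e
    obtain ⟨c, hc⟩ := Set.ncard_eq_one.1 e
    have hca : c = a := by rw [hc] at ha; exact ha.symm
    have h5 := H.iSup_pts (Or.inl hL) ha
    rw [hc, hca] at h5
    simp only [Set.mem_singleton_iff, iSup_iSup_eq_left] at h5
    have := H.card a
    rw [h5, hL.2] at this
    exact absurd this (by norm_num)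
  generalize (pts P L).ncard = n at *
  have h5 : n ∣ 60 := ⟨m, by linarith⟩
  have h6 : n ≤ 60 := Nat.le_of_dvd (by norm_num) h5
  interval_cases n <;> simp_all

theorem LB1.card_stab (H : Hyp P) {L : Subgroup G} (hL : IsL L) {a : Ω} (ha : a ∈ pts P L) :
    Nat.card ↥(L ⊓ stabilizer G a) = 55 := by
  have h1 := H.card_pts (not121 hL) ha
  rw [hL.2, H.ncard_pts_L hL ha] at h1
  omega

theorem Hyp.blk_eq_L (H : Hyp P) {L : Subgroup G} (hL : IsL L) {c d : Ω} (hc : c ∈ pts P L) (hd : d ∈ pts P L)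
    (hcd : c ≠ d) : P c ⊔ P d = L := by
  refine eq_of_le_of_card_ge (sup_le hc hd) ?_
  rw [hL.2]
  rcases (H.simple_blk hcd).2.2 with e | e <;> rw [e] <;> norm_num

theorem Hyp.reg_L (H : Hyp P) {L : Subgroup G} (hL : IsL L) {a b c : Ω} (ha : a ∈ pts P L) (hb : b ∈ pts P L)
    (hc : c ∈ pts P L) (hba : b ≠ a) (hca : c ≠ a) : ∃ x ∈ P a, x • b = c := by
  have hsub : (fun x : G => x • b) '' (P a : Set G) ⊆ pts P L \ {a} := by
    rintro _ ⟨x, hx, rfl⟩
    refine ⟨smul_pts H (ha hx) hb, fun e => hba ?_⟩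
    have e' : x • b = a := e
    have := H.fix_of_mem (inv_mem hx)
    rw [← e', inv_smul_smul] at this
    exact this.trans e'
  have hinj : Set.InjOn (fun x : G => x • b) (P a : Set G) := by
    intro x hx y hy e
    have e' : x • b = y • b := e
    by_contra h
    refine hba (H.semireg (mul_mem (inv_mem hy) hx) (fun e => h ?_) ?_)
    · exact (inv_mul_eq_one.1 e).symm
    · rw [mul_smul, e', inv_smul_smul]
  have := Set.eq_of_subset_of_ncard_le hsub (by
    rw [Set.ncard_sdiff_singleton_of_mem ha, H.ncard_pts_L hL ha, hinj.ncard_image, ← Nat.card_coe_set_eq]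
    exact (H.card a).ge)
  have hc' : c ∈ pts P L \ {a} := ⟨hc, hca⟩
  rw [← this] at hc'
  exact hc'

theorem Hyp.K_L (H : Hyp P) {L : Subgroup G} (hL : IsL L) {a : Ω} (ha : a ∈ pts P L) {x : G} (hx : x ∈ L)
    (hK : x ∈ KK P a) : x ∈ P a := by
  have hB := card_stab H hL ha
  have hle : P a ≤ L ⊓ stabilizer G a ⊓ KK P a :=
    le_inf (le_inf ha fun x hx => H.fix_of_mem hx) (H.le_K a)
  have h1 : Nat.card (P a) ∣ Nat.card ↥(L ⊓ stabilizer G a ⊓ KK P a) := card_dvd_of_le hle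
  have h2 : Nat.card ↥(L ⊓ stabilizer G a ⊓ KK P a) ∣ Nat.card ↥(L ⊓ stabilizer G a) := card_dvd_of_le inf_le_left
  rw [H.card] at h1
  rw [hB] at h2
  have h3 : Nat.card ↥(L ⊓ stabilizer G a ⊓ KK P a) = 11 ∨ Nat.card ↥(L ⊓ stabilizer G a ⊓ KK P a) = 55 := by
    generalize Nat.card ↥(L ⊓ stabilizer G a ⊓ KK P a) = n at *
    have h6 : n ≤ 55 := Nat.le_of_dvd (by norm_num) h2
    interval_cases n <;> simp_all
  rcases h3 with e | e
  · rw [eq_of_le_of_card_ge hle (by rw [e, H.card])]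
    exact ⟨⟨hx, H.fix_of_K hK⟩, hK⟩
  · exfalso
    have h4 : L ⊓ stabilizer G a ⊓ KK P a = L ⊓ stabilizer G a :=
      eq_of_le_of_card_ge inf_le_left (by rw [e, hB])
    obtain ⟨y, hy, hy1⟩ := H.exists_ne a
    haveI : Fact (Nat.Prime 11) := ⟨by norm_num⟩
    refine hy1 (burn hL (p := 11) ha ?_ (fun u hu v hv => H.le_K a hv u hu) hy fun g hg hn => ?_)
    · rw [H.card, show (660 : ℕ) = 11 ^ 1 * 60 by norm_num,
        Nat.factorization_mul (by norm_num) (by norm_num)]
      simp [Nat.factorization_eq_zero_of_not_dvd, Nat.Prime.factorization_self (by norm_num : Nat.Prime 11)]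
    · have : g ∈ L ⊓ stabilizer G a ⊓ KK P a := by rw [h4]; exact ⟨hg, H.fix_iff.2 hn⟩
      exact (this.2 y hy).symm

theorem Hyp.inv_L (H : Hyp P) {L : Subgroup G} (hL : IsL L) {a : Ω} (ha : a ∈ pts P L) {s : G} (hs : s ∈ L)
    (h2 : s * s = 1) (e : s • a = a) : s = 1 := by
  have h1 : orderOf s ∣ 55 := by
    rw [← card_stab H hL ha]
    exact (L ⊓ stabilizer G a).orderOf_dvd_natCard ⟨hs, e⟩
  have h3 : orderOf s ∣ 2 := orderOf_dvd_of_pow_eq_one (by rw [sq, h2])
  exact orderOf_eq_one_iff.1 (Nat.eq_one_of_dvd_coprimes (by norm_num) h1 h3)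

theorem Hyp.exists_fr (H : Hyp P) {a b : Ω} (hab : a ≠ b) (hL : IsL ↥(P a ⊔ P b)) : ∃ h t, Fr P a b h t := by
  set L := P a ⊔ P b with hLdef
  have ha : a ∈ pts P L := le_sup_left (a := P a) (b := P b)
  have hb : b ∈ pts P L := le_sup_right (a := P a) (b := P b)
  have h5 : Nat.card ↥(L ⊓ stabilizer G a ⊓ stabilizer G b) = 5 := by
    have := card_eq_of_trans (L ⊓ stabilizer G a) (pts P L \ {a}) (y := b)
      (fun c hc => ⟨smul_pts H hc.1 hb, fun e => hab (by
        have e' : c • b = a := e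
        have e2 : c • a = a := hc.2
        exact smul_left_cancel c (e2.trans e'.symm))⟩)
      (fun z hz => by
        obtain ⟨x, hx, e⟩ := H.reg_L hL ha hb hz.1 hab.symm hz.2
        exact ⟨x, ⟨ha hx, H.fix_of_mem hx⟩, e⟩)
    rw [card_stab H hL ha, Set.ncard_sdiff_singleton_of_mem ha, H.ncard_pts_L hL ha] at this
    omega
  haveI : Fact (Nat.Prime 5) := ⟨by norm_num⟩
  obtain ⟨⟨h, ⟨hhL, hha⟩, hhb⟩, hh⟩ := exists_prime_orderOf_dvd_card' (G := ↥(L ⊓ stabilizer G a ⊓ stabilizer G b)) 5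
    (by rw [h5])
  rw [← orderOf_coe] at hh
  have hh' : orderOf h = 5 := hh
  have hha' : h • a = a := hha
  have hhb' : h • b = b := hhb
  have hz : zpowers h = L ⊓ stabilizer G a ⊓ stabilizer G b :=
    eq_of_le_of_card_ge (zpowers_le.2 ⟨⟨hhL, hha⟩, hhb⟩) (by rw [h5, Nat.card_zpowers, hh'])
  have two : ∀ g ∈ L, g • a = a → g • b = b → g ∈ zpowers h := fun g hg e1 e2 => by
    rw [hz]; exact ⟨⟨hg, e1⟩, e2⟩
  have h1 : h ≠ 1 := by rintro rfl; simp at hh'
  have hlam : lam P a h ≠ 1 := fun e =>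
    hab (H.semireg (H.K_L hL ha hhL ((H.lam_eq_one_iff hha').1 e)) h1 hhb').symm
  obtain ⟨g, hg, hga⟩ := H.exists_smul (not121 hL) ha hb
  obtain ⟨x, hx, hxe⟩ := H.reg_L hL hb (smul_pts H hg hb) ha
    (fun e => hab (smul_left_cancel g (hga.trans e.symm))) hab
  set t0 := x * g with ht0
  have t0L : t0 ∈ L := mul_mem (hb hx) hg
  have t0a : t0 • a = b := by rw [ht0, mul_smul, hga, H.fix_of_mem hx]
  have t0b : t0 • b = a := by rw [ht0, mul_smul, hxe]
  have sq5 : (t0 * t0) ^ 5 = 1 := by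
    have : t0 * t0 ∈ zpowers h := two _ (mul_mem t0L t0L) (by rw [mul_smul, t0a, t0b]) (by rw [mul_smul, t0b, t0a])
    obtain ⟨k, hk⟩ := mem_zpowers_iff.1 this
    rw [← hk, ← zpow_natCast, ← zpow_mul, mul_comm, zpow_mul, zpow_natCast, ← hh', pow_orderOf_eq_one, one_zpow]
  set t := t0 ^ 5 with ht
  have tL : t ∈ L := pow_mem t0L 5
  have t2 : t * t = 1 := by rw [ht, ← sq5, ← sq, ← sq, ← pow_mul, ← pow_mul]
  have e5 : t = t0 * (t0 * (t0 * (t0 * t0))) := by rw [ht]; simp only [pow_succ, pow_zero, one_mul, mul_assoc]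
  have ta : t • a = b := by rw [e5]; simp only [mul_smul, t0a, t0b]
  have tb : t • b = a := by rw [e5]; simp only [mul_smul, t0a, t0b]
  have ti : t⁻¹ = t := inv_eq_of_mul_eq_one_right t2
  refine ⟨h, t, hab, hhL, tL, hha', hhb', hh', hlam, t2, ta, tb, ?_, two⟩
  have hc : t * h * t⁻¹ ∈ zpowers h := two _ (mul_mem (mul_mem tL hhL) (inv_mem tL))
    (by rw [ti, mul_smul, mul_smul, ta, hhb', tb]) (by rw [ti, mul_smul, mul_smul, tb, hha', ta])
  obtain ⟨i, hi5, hi⟩ : ∃ i < 5, h ^ i = t * h * t⁻¹ := by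
    obtain ⟨i, hi⟩ := (isOfFinOrder_of_finite h).mem_powers_iff_mem_zpowers.2 hc
    exact ⟨i % 5, Nat.mod_lt _ (by norm_num), by rw [← hh', pow_mod_orderOf]; exact hi⟩
  have hii : i * i ≡ 1 [MOD 5] := by
    rw [← hh', ← pow_eq_pow_iff_modEq, pow_mul, hi, conj_pow, hi, ti, pow_one]
    calc t * (t * h * t) * t = (t * t) * h * (t * t) := by group
      _ = h := by rw [t2]; simp
  have hi14 : i = 1 ∨ i = 4 := by
    unfold Nat.ModEq at hii
    interval_cases i <;> simp_all
  rcases hi14 with rfl | rfl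
  · exfalso
    have hth : t * h = h * t := by rw [pow_one, eq_mul_inv_iff_mul_eq] at hi; exact hi.symm
    have fix : ∀ c ∈ pts P L, h • c = c → c = a ∨ c = b := by
      intro c hc e
      by_contra hne
      push Not at hne
      obtain ⟨y, hy, rfl⟩ := H.reg_L hL ha hb hc hab.symm hne.1
      have hy1 : y ≠ 1 := by rintro rfl; exact hne.2 (one_smul G b)
      have hy' : h * y * h⁻¹ ∈ P a := H.smul_eq_iff.1 hha' y hy
      have : y⁻¹ * (h * y * h⁻¹) = 1 := by
        by_contra h0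
        refine hab (H.semireg (mul_mem (inv_mem hy) hy') h0 ?_).symm
        have : h⁻¹ • b = b := by rw [inv_smul_eq_iff, hhb']
        rw [mul_smul, mul_smul, this, mul_smul, e, inv_smul_smul]
      refine hlam (H.lam_eq hha' hy hy1 ?_)
      rw [show (1 : ZMod 11).val = 1 from rfl, pow_one]
      exact (inv_mul_eq_one.1 this).symm
    have cm : ∀ u ∈ zpowers h, u * h = h * u := by
      rintro _ ⟨k, rfl⟩
      exact ((Commute.refl h).zpow_left k).eq
    refine h1 (burn hL (p := 5) (zpowers_le.2 hhL) ?_ ?_ (mem_zpowers h) fun n hn hN => ?_)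
    · rw [Nat.card_zpowers, hh', show (660 : ℕ) = 5 ^ 1 * 132 by norm_num,
        Nat.factorization_mul (by norm_num) (by norm_num)]
      simp [Nat.factorization_eq_zero_of_not_dvd, Nat.Prime.factorization_self (by norm_num : Nat.Prime 5)]
    · rintro _ ⟨k, rfl⟩ _ ⟨l, rfl⟩
      exact ((Commute.refl h).zpow_zpow k l).eq
    · have hm : n⁻¹ * h * n ∈ L ⊓ stabilizer G a ⊓ stabilizer G b := by
        rw [← hz]
        refine (mem_normalizer_iff.1 hN _).2 ?_
        simp [mul_assoc]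
      have ea : (n⁻¹ * h * n) • a = a := hm.1.2
      have eb : (n⁻¹ * h * n) • b = b := hm.2
      rw [mul_smul, mul_smul, inv_smul_eq_iff] at ea eb
      have nab : n • a ≠ n • b := fun e => hab (smul_left_cancel n e)
      rcases fix _ (smul_pts H hn ha) ea with e1 | e1 <;> rcases fix _ (smul_pts H hn hb) eb with e2 | e2
      · exact absurd (e1.trans e2.symm) nab
      · exact cm _ (two n hn e1 e2)
      · have := cm _ (two (t * n) (mul_mem tL hn) (by rw [mul_smul, e1, tb]) (by rw [mul_smul, e2, ta]))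
        rw [← mul_assoc, ← hth, mul_assoc, mul_assoc] at this
        exact mul_left_cancel this
      · exact absurd (e1.trans e2.symm) nab
  · rw [← hi, eq_inv_iff_mul_eq_one, ← pow_succ, show 4 + 1 = orderOf h from hh'.symm, pow_orderOf_eq_one]

theorem IsL.four {L : Subgroup G} (hL : IsL L) {t : G} (ht : t ∈ L) (h2 : orderOf t = 2) :
    ∃ v ∈ L, orderOf v = 2 ∧ v ≠ t ∧ Commute t v := by
  obtain ⟨v, h1, h3, h4⟩ := four' hL (t := ⟨t, ht⟩) (by rw [← orderOf_coe]; exact h2)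
  exact ⟨v, v.2, by rw [orderOf_coe]; exact h1, fun e => h3 (Subtype.ext e), congrArg Subtype.val h4.eq⟩

theorem IsL.conj {L : Subgroup G} (hL : IsL L) {s t : G} (hs : s ∈ L) (ht : t ∈ L) (h2 : orderOf s = 2)
    (h2' : orderOf t = 2) : ∃ g ∈ L, g * s * g⁻¹ = t := by
  obtain ⟨g, hg⟩ := isConj_iff.1 (conj' hL (s := ⟨s, hs⟩) (t := ⟨t, ht⟩) (by rw [← orderOf_coe]; exact h2)
    (by rw [← orderOf_coe]; exact h2'))
  exact ⟨g, g.2, congrArg Subtype.val hg⟩

end Cfsg.Agent.E11
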